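import Cfsg.Agent.Lib.Helper41.BG11Kit

/-!
# B&G Section 11: small auxiliary lemmas (helper41)
-/

set_option autoImplicit false

open Cfsg Cfsg.Agent.Lib.Helper32 Cfsg.Agent.Lib.Helper32.BG10 Cfsg.Agent.Lib.Helper3.BG12

namespace Cfsg.Agent.Lib.Helper41.BG11

universe u

variable {G : Type u} [Group G]

/-- in a finite group, `g` normalizes `T` as soon as it conjugates `T` into `T` -/
theorem mem_normalizer_of_conj_mem [Finite G] {g : G} {T : Subgroup G}
    (h : ∀ x ∈ T, g * x * g⁻¹ ∈ T) : g ∈ Subgroup.normalizer (T : Set G) := by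
  rw [← cj_eq_self_iff]
  refine Subgroup.eq_of_le_of_card_ge ?_ (by rw [card_cj])
  intro x hx
  rw [mem_cj] at hx
  have := h _ hx
  have h2 : g * (g⁻¹ * x * g) * g⁻¹ = x := by group
  rwa [h2] at this

theorem conj_mem_of_mem_normalizer {g x : G} {T : Subgroup G}
    (hg : g ∈ Subgroup.normalizer (T : Set G)) (hx : x ∈ T) : g * x * g⁻¹ ∈ T :=
  (Subgroup.mem_normalizer_iff.mp hg x).mp hx

theorem conj_mem_of_mem_normalizer' {g x : G} {T : Subgroup G}
    (hg : g ∈ Subgroup.normalizer (T : Set G)) (hx : x ∈ T) : g⁻¹ * x * g ∈ T := by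
  have := (Subgroup.mem_normalizer_iff.mp ((Subgroup.normalizer (T : Set G)).inv_mem hg) x).mp hx
  simpa using this

theorem isPGroup_of_elemAb {p : ℕ} {A : Subgroup G} (h : IsElementaryAbelian p A) :
    IsPGroup p A := fun g => ⟨1, by rw [pow_one]; exact Subtype.ext (h.2 g.1 g.2)⟩

theorem ne_bot_of_card_prime {p : ℕ} (hp : p.Prime) {X : Subgroup G} (h : Nat.card X = p) :
    X ≠ ⊥ := by
  intro h0
  rw [h0, Subgroup.card_bot] at h
  exact hp.one_lt.ne h

/-- a subgroup of order `p` is generated by each of its nontrivial elements -/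
theorem zpowers_eq_of_card_prime [Finite G] {p : ℕ} (hp : p.Prime) {X : Subgroup G}
    (h : Nat.card X = p) {x : G} (hx : x ∈ X) (hx1 : x ≠ 1) : Subgroup.zpowers x = X := by
  have hle : Subgroup.zpowers x ≤ X := by rw [Subgroup.zpowers_le]; exact hx
  refine Subgroup.eq_of_le_of_card_ge hle ?_
  have h1 : Nat.card (Subgroup.zpowers x) ∣ p := h ▸ Subgroup.card_dvd_of_le hle
  rcases (Nat.dvd_prime hp).mp h1 with h2 | h2
  · exfalso
    rw [Nat.card_zpowers] at h2
    exact hx1 (orderOf_eq_one_iff.mp h2)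
  · rw [h, h2]

/-- two distinct subgroups of order `p` meet trivially -/
theorem inf_eq_bot_of_card_prime [Finite G] {p : ℕ} (hp : p.Prime) {X Y : Subgroup G}
    (hX : Nat.card X = p) (hY : Nat.card Y = p) (hne : X ≠ Y) : X ⊓ Y = ⊥ := by
  rw [eq_bot_iff]
  intro x hx
  rw [Subgroup.mem_bot]
  by_contra hx1
  exact hne ((zpowers_eq_of_card_prime hp hX hx.1 hx1).symm.trans
    (zpowers_eq_of_card_prime hp hY hx.2 hx1))

/-- a subgroup strictly between `⊥` and a subgroup of order `p ^ 2` has order `p` -/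
theorem card_eq_prime_of_lt [Finite G] {p : ℕ} (hp : p.Prime) {X A : Subgroup G}
    (hA : Nat.card A = p ^ 2) (hXA : X ≤ A) (h0 : X ≠ ⊥) (h1 : X ≠ A) : Nat.card X = p := by
  have hd : Nat.card X ∣ p ^ 2 := hA ▸ Subgroup.card_dvd_of_le hXA
  obtain ⟨k, hk, hkc⟩ := (Nat.dvd_prime_pow hp).mp hd
  interval_cases k
  · exfalso
    apply h0
    rw [pow_zero] at hkc
    exact Subgroup.card_eq_one.mp hkc
  · simpa using hkc
  · exfalso
    apply h1
    exact Subgroup.eq_of_le_of_card_ge hXA (by rw [hA, hkc])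

/-- `B = B₀ ⊔ B₁` for two distinct subgroups of order `q` of a group of order `q ^ 2` -/
theorem sup_eq_of_card [Finite G] {q : ℕ} (hq : q.Prime) {B B₀ B₁ : Subgroup G}
    (hB : Nat.card B = q ^ 2) (h0 : B₀ ≤ B) (h1 : B₁ ≤ B) (hc0 : Nat.card B₀ = q)
    (hc1 : Nat.card B₁ = q) (hinf : B₀ ⊓ B₁ = ⊥) : B₀ ⊔ B₁ = B := by
  by_contra hne
  have hle : B₀ ⊔ B₁ ≤ B := sup_le h0 h1
  have hne0 : B₀ ⊔ B₁ ≠ ⊥ := fun h => ne_bot_of_card_prime hq hc0 (by
    rw [eq_bot_iff]; exact le_sup_left.trans h.le)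
  have hc := card_eq_prime_of_lt hq hB hle hne0 hne
  have e0 : B₀ = B₀ ⊔ B₁ := Subgroup.eq_of_le_of_card_ge le_sup_left (by rw [hc, hc0])
  have e1 : B₁ ≤ B₀ := by rw [e0]; exact le_sup_right
  have e2 : B₁ ≤ B₀ ⊓ B₁ := le_inf e1 le_rfl
  rw [hinf] at e2
  exact ne_bot_of_card_prime hq hc1 (eq_bot_iff.mpr e2)

/-- `N(B) ≤ N(C(B))` -/
theorem conj_mem_centralizer {u x : G} {B : Subgroup G}
    (hu : u ∈ Subgroup.normalizer (B : Set G)) (hx : x ∈ Subgroup.centralizer (B : Set G)) :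
    u * x * u⁻¹ ∈ Subgroup.centralizer (B : Set G) := by
  rw [Subgroup.mem_centralizer_iff]
  intro b hb
  have h1 : u⁻¹ * b * u ∈ B := conj_mem_of_mem_normalizer' hu hb
  have h2 := (Subgroup.mem_centralizer_iff.mp hx) _ h1
  have e1 : b * (u * x * u⁻¹) = u * ((u⁻¹ * b * u) * x) * u⁻¹ := by group
  have e2 : u * x * u⁻¹ * b = u * (x * (u⁻¹ * b * u)) * u⁻¹ := by group
  rw [e1, e2, h2]

theorem normalizer_le_normalizer_centralizer [Finite G] (B : Subgroup G) :
    Subgroup.normalizer (B : Set G) ≤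
      Subgroup.normalizer ((Subgroup.centralizer (B : Set G) : Subgroup G) : Set G) :=
  fun _ hu => mem_normalizer_of_conj_mem (fun _ hx => conj_mem_centralizer hu hx)

theorem centralizer_le_normalizer' (B : Subgroup G) :
    Subgroup.centralizer (B : Set G) ≤ Subgroup.normalizer (B : Set G) := by
  intro x hx
  rw [Subgroup.mem_normalizer_iff]
  intro y
  constructor
  · intro hy
    have h1 : y * x = x * y := (Subgroup.mem_centralizer_iff.mp hx) y hy
    have h2 : x * y * x⁻¹ = y := by rw [← h1]; group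
    rw [h2]; exact hy
  · intro hy
    have h1 : x * y * x⁻¹ * x = x * (x * y * x⁻¹) := (Subgroup.mem_centralizer_iff.mp hx) _ hy
    have h2 : y = x * y * x⁻¹ := by
      have h3 : x * y = x * (x * y * x⁻¹) := by rw [← h1]; group
      exact mul_left_cancel h3
    rw [h2]; exact hy

end Cfsg.Agent.Lib.Helper41.BG11
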