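import Mathlib

/-!
# Index lemmas for cores (pure Mathlib)

* `index_iInf_dvd_pow`: the intersection of normal subgroups of index dividing `m`, indexed by a
  finite type `ι`, has index dividing `m ^ card ι`.
* `index_normalCore_dvd`: the core of `H` has index dividing `(index H)!`.
* `relIndex_normalCore_dvd`: for `A ≤ H`, `|A : A ∩ core H|` divides `(index H - 1)!`.
-/

set_option autoImplicit false

namespace Cfsg.Agent.Lib.Helper41.TW

theorem index_iInf_dvd_pow {A : Type*} [Group A] [Finite A] {ι : Type*} [Fintype ι]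
    (N : ι → Subgroup A) (hN : ∀ i, (N i).Normal) (m : ℕ) (h : ∀ i, (N i).index ∣ m) :
    (⨅ i, N i).index ∣ m ^ Fintype.card ι := by
  classical
  have := hN
  let f : A →* (∀ i, A ⧸ N i) := MonoidHom.pi (fun i => QuotientGroup.mk' (N i))
  have hker : f.ker = ⨅ i, N i := by
    ext x
    rw [MonoidHom.mem_ker, Subgroup.mem_iInf]
    constructor
    · intro hx i
      have := congrFun hx i
      simpa [f] using this
    · intro hx
      funext i
      simpa [f] using hx i
  rw [← hker, Subgroup.index_ker]
  have h1 : Nat.card f.range ∣ Nat.card (∀ i, A ⧸ N i) := Subgroup.card_subgroup_dvd_card _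
  rw [Nat.card_pi] at h1
  refine h1.trans ?_
  calc ∏ i, Nat.card (A ⧸ N i) ∣ ∏ _i : ι, m :=
        Finset.prod_dvd_prod_of_dvd _ _ (fun i _ => h i)
    _ = m ^ Fintype.card ι := by simp

theorem index_normalCore_dvd {K : Type*} [Group K] [Finite K] (H : Subgroup K) :
    H.normalCore.index ∣ H.index.factorial := by
  rw [Subgroup.normalCore_eq_ker, Subgroup.index_ker, Subgroup.index_eq_card, ← Nat.card_perm]
  exact Subgroup.card_subgroup_dvd_card (MulAction.toPermHom K (K ⧸ H)).range

/-- The stabilizer of a point in `Perm α` has order `(card α - 1)!`. -/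
theorem card_stabilizer_perm {α : Type*} [Finite α] (a : α) :
    Nat.card (MulAction.stabilizer (Equiv.Perm α) a) = (Nat.card α - 1).factorial := by
  classical
  have := Fintype.ofFinite α
  have h1 := MulAction.card_orbit_mul_card_stabilizer_eq_card_group (Equiv.Perm α) a
  have h2 : MulAction.orbit (Equiv.Perm α) a = Set.univ := MulAction.orbit_eq_univ _ a
  have h3 : Fintype.card (MulAction.orbit (Equiv.Perm α) a) = Fintype.card α := by
    rw [← Nat.card_eq_fintype_card, ← Nat.card_eq_fintype_card, h2, Nat.card_coe_set_eq,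
      Set.ncard_univ]
  rw [h3, Fintype.card_perm] at h1
  have hpos : 0 < Fintype.card α := Fintype.card_pos_iff.mpr ⟨a⟩
  rw [Nat.card_eq_fintype_card (α := α), Nat.card_eq_fintype_card]
  have h4 : Fintype.card α * (Fintype.card α - 1).factorial = (Fintype.card α).factorial :=
    Nat.mul_factorial_pred hpos.ne'
  rw [← h4] at h1
  exact Nat.eq_of_mul_eq_mul_left hpos h1

theorem relIndex_normalCore_dvd {K : Type*} [Group K] [Finite K] (H A : Subgroup K)
    (hA : A ≤ H) : H.normalCore.relIndex A ∣ (H.index - 1).factorial := by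
  classical
  set φ := MulAction.toPermHom K (K ⧸ H) with hφ
  have h1 : H.normalCore.subgroupOf A = (φ.comp A.subtype).ker := by
    rw [Subgroup.normalCore_eq_ker, ← MonoidHom.comap_ker]
    rfl
  unfold Subgroup.relIndex
  rw [h1, Subgroup.index_ker]
  have h2 : (φ.comp A.subtype).range ≤
      MulAction.stabilizer (Equiv.Perm (K ⧸ H)) ((1 : K) : K ⧸ H) := by
    rintro _ ⟨a, rfl⟩
    rw [MulAction.mem_stabilizer_iff]
    show (φ a : Equiv.Perm (K ⧸ H)) ((1 : K) : K ⧸ H) = _
    rw [hφ, MulAction.toPermHom_apply, MulAction.toPerm_apply]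
    show (((a : K) * 1 : K) : K ⧸ H) = _
    rw [mul_one]
    exact QuotientGroup.eq.mpr (by simpa using H.inv_mem (hA a.2))
  have h3 := Subgroup.card_dvd_of_le h2
  rw [card_stabilizer_perm] at h3
  rwa [Subgroup.index_eq_card]

end Cfsg.Agent.Lib.Helper41.TW
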