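import Cfsg.Agent.Lib.Helper3.BG12Defs
import Cfsg.Agent.Lib.Helper32.BG10Main
import Cfsg.Agent.Lib.Helper32.BG12KITB

/-!
# B&G Section 11 and 12.3 - 12.5 (S1416, S1417): interface (helper41)

The lemmas of the block, with `G` fixed, as `Prop`s, so that the pieces can be proved
independently.
-/

set_option autoImplicit false

open Cfsg Cfsg.Agent.Lib.Helper32 Cfsg.Agent.Lib.Helper32.BG10 Cfsg.Agent.Lib.Helper3.BG12

namespace Cfsg.Agent.Lib.Helper41.BG11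

universe u

variable {G : Type u} [Group G]

/-- `A` is a maximal elementary abelian `p`-subgroup of `G` -/
def MaxEA (p : ℕ) (A : Subgroup G) : Prop :=
  IsElementaryAbelian p A ∧ ∀ B : Subgroup G, IsElementaryAbelian p B → A ≤ B → B = A

/-- exceptional quadruple (B&G Hypothesis 11.1), with its first consequences (B&G 10.5)
recorded -/
def Exc (M : Subgroup G) (p : ℕ) (A A₀ : Subgroup G) : Prop :=
  IsCoatom M ∧ p.Prime ∧ p ∉ sigma M ∧ A ≤ M ∧ MaxEA p A ∧ Nat.card A = p ^ 2 ∧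
    ¬ IsIdealPrime p G ∧ A₀ ≤ A ∧ Nat.card A₀ = p ∧ Subgroup.normalizer (A₀ : Set G) ≤ M

/-- no subgroup of order `p` of `A` has its normalizer in `M` and in no other maximal
subgroup -/
def Bad (M : Subgroup G) (p : ℕ) (A : Subgroup G) : Prop :=
  ∀ A₀ : Subgroup G, A₀ ≤ A → Nat.card A₀ = p →
    ¬ (Subgroup.normalizer (A₀ : Set G) ≤ M ∧
      ∀ L : Subgroup G, IsCoatom L → Subgroup.normalizer (A₀ : Set G) ≤ L → L = M)

/-- the configuration of the bad case: a normal subgroup `B₀` of order `q` of `M` on which `A`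
acts nontrivially, inside `B = B₀ × B₁` with `B₁ = C_B(A)` -/
def SigmaCfg (M : Subgroup G) (p : ℕ) (A : Subgroup G) (q : ℕ) (B B₀ B₁ : Subgroup G) : Prop :=
  q.Prime ∧ q ≠ p ∧ q ∉ sigma M ∧ B₀ ≤ M ∧ M ≤ Subgroup.normalizer (B₀ : Set G) ∧
    Nat.card B₀ = q ∧ B ≤ M ∧ IsElementaryAbelian q B ∧ Nat.card B = q ^ 2 ∧ B₀ ≤ B ∧ B₁ ≤ B ∧
    Nat.card B₁ = q ∧ B₀ ⊓ B₁ = ⊥ ∧ A ≤ Subgroup.normalizer (B : Set G) ∧
    B₁ ≤ Subgroup.centralizer (A : Set G) ∧ ¬ B₀ ≤ Subgroup.centralizer (A : Set G)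

variable (G)

/-- TR (transitivity, from S1392 + S1396 + S1410) -/
def PTr : Prop :=
  ∀ (p : ℕ) (A : Subgroup G), p.Prime → MaxEA p A → Nat.card A = p ^ 2 →
    ∀ (q : ℕ), q.Prime → q ≠ p → ∀ Q₁ Q₂ : Subgroup G, Q₁ ∈ sylSet q ⊤ → Q₂ ∈ sylSet q ⊤ →
      A ≤ Subgroup.normalizer (Q₁ : Set G) → A ≤ Subgroup.normalizer (Q₂ : Set G) →
      ∀ H : Subgroup G, H ≠ ⊤ → A ≤ H → H ⊓ Q₁ ≠ ⊥ → H ⊓ Q₂ ≠ ⊥ →
      ∃ k ∈ Subgroup.centralizer (A : Set G), Q₂ = cj k Q₁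

/-- T1 (B&G 11.1) -/
def PT1 : Prop :=
  ∀ (M : Subgroup G) (p : ℕ) (A A₀ : Subgroup G), Exc M p A A₀ →
    ∀ (q : ℕ), q.Prime → q ∈ sigma M → ∀ g : G, g ∉ M →
    ∀ Q₁ Q₁' : Subgroup G, Q₁ ∈ sylSet q (sigmaCore M) → Q₁' ∈ sylSet q (sigmaCore M) →
      A ≤ Subgroup.normalizer (Q₁ : Set G) →
      A ≤ Subgroup.normalizer ((cj g Q₁' : Subgroup G) : Set G) →
      ∀ H : Subgroup G, H ≠ ⊤ → A ≤ H → H ⊓ Q₁ ≠ ⊥ → H ⊓ cj g Q₁' ≠ ⊥ → False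

/-- TI (B&G 11.2) -/
def PTI : Prop :=
  ∀ (M : Subgroup G) (p : ℕ) (A A₀ : Subgroup G), Exc M p A A₀ → ∀ g : G, g ∉ M → A ≤ cj g M →
    sigmaCore M ⊓ cj g M = ⊥ ∧
      sigmaCore M ⊓ Subgroup.centralizer ((cj g A₀ : Subgroup G) : Set G) = ⊥

/-- NIL (B&G 11.3) -/
def PNil : Prop :=
  ∀ (M : Subgroup G) (p : ℕ) (A A₀ : Subgroup G), Exc M p A A₀ →
    Group.IsNilpotent ↥(sigmaCore M)

/-- P0: `M_σ ≠ 1` -/
def PNe : Prop := ∀ M : Subgroup G, IsCoatom M → sigmaCore M ≠ ⊥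

/-- BSA: the centralizer of a maximal elementary abelian subgroup of order `p ^ 2` in a
`p`-subgroup is abelian -/
def PBSA : Prop :=
  ∀ (p : ℕ) (A P : Subgroup G), p.Prime → MaxEA p A → Nat.card A = p ^ 2 → IsPGroup p P → A ≤ P →
    IsMulCommutative ↥(P ⊓ Subgroup.centralizer (A : Set G))

/-- BSB (pure): structure of a `p`-group not centralizing its subgroup `A = Ω₁(C_P(A))` of
order `p ^ 2` -/
def PBSB : Prop :=
  ∀ (p : ℕ) (A P : Subgroup G), p.Prime → IsPGroup p P → A ≤ P → IsElementaryAbelian p A →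
    Nat.card A = p ^ 2 → (∀ x ∈ P ⊓ Subgroup.centralizer (A : Set G), x ^ p = 1 → x ∈ A) →
    ¬ P ≤ Subgroup.centralizer (A : Set G) →
    ∃ Z₀ : Subgroup G, Z₀ ≤ A ∧ Nat.card Z₀ = p ∧ P ≤ Subgroup.centralizer (Z₀ : Set G) ∧
      Subgroup.normalizer (P : Set G) ≤ Subgroup.normalizer (Z₀ : Set G) ∧
      (∃ u ∈ P ⊓ Subgroup.normalizer (A : Set G), u ∉ Subgroup.centralizer (A : Set G)) ∧
      ∀ X Y : Subgroup G, X ≤ A → Y ≤ A → Nat.card X = p → Nat.card Y = p → X ≠ Z₀ → Y ≠ Z₀ →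
        ∃ u ∈ P ⊓ Subgroup.normalizer (A : Set G), Y = cj u X

/-- AB (B&G 11.5): the Sylow `p`-subgroups of `M` are abelian -/
def PAb : Prop :=
  ∀ (M : Subgroup G) (p : ℕ) (A A₀ : Subgroup G), Exc M p A A₀ → ∀ P : Subgroup G,
    P ∈ sylSet p M → IsMulCommutative ↥P

/-- B&G 11.5 + 11.6(a) -/
def PSyl : Prop :=
  ∀ (M : Subgroup G) (p : ℕ) (A A₀ : Subgroup G), Exc M p A A₀ → ∀ P : Subgroup G,
    P ∈ sylSet p M → IsMulCommutative ↥P ∧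
      (A ≤ P → (∀ x ∈ P, x ^ p = 1 ↔ x ∈ A) ∧ ¬ Subgroup.normalizer (P : Set G) ≤ M)

/-- B&G 11.6(b),(c) -/
def PFpf : Prop :=
  ∀ (M : Subgroup G) (p : ℕ) (A A₀ : Subgroup G), Exc M p A A₀ →
    sigmaCore M ⊓ Subgroup.centralizer (A : Set G) = ⊥ ∧
    ¬ Subgroup.normalizer (A : Set G) ≤ M ∧
    ∃ A₁ A₂ : Subgroup G, A₁ ≤ A ∧ A₂ ≤ A ∧ Nat.card A₁ = p ∧ Nat.card A₂ = p ∧ A₁ ≠ A₂ ∧
      sigmaCore M ⊓ Subgroup.centralizer (A₁ : Set G) = ⊥ ∧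
      sigmaCore M ⊓ Subgroup.centralizer (A₂ : Set G) = ⊥

/-- UNIQS (B&G 11.4) -/
def PUniqS : Prop :=
  ∀ (M : Subgroup G) (p : ℕ) (A A₀ : Subgroup G), Exc M p A A₀ → ∀ H : Subgroup G, IsCoatom H →
    A ≤ H → sigmaCore H ⊓ sigmaCore M ≠ ⊥ → H = M

/-- BETA: subgroups of `H_σ` whose order involves no ideal prime are nilpotent -/
def PBeta : Prop :=
  ∀ (H X : Subgroup G), IsCoatom H → X ≤ sigmaCore H →
    (∀ r : ℕ, r.Prime → r ∣ Nat.card X → ¬ IsIdealPrime r G) → Group.IsNilpotent ↥X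

/-- BU: two maximal subgroups sharing a nontrivial `q`-subgroup, `q` ideal, `q ∈ σ` of both,
are equal -/
def PBU : Prop :=
  ∀ (M H Y : Subgroup G) (q : ℕ), IsCoatom M → IsCoatom H → q.Prime → IsIdealPrime q G →
    q ∈ sigma M → q ∈ sigma H → IsPGroup q Y → Y ≠ ⊥ → Y ≤ M → Y ≤ H → H = M

/-- CYC: normal `q`-subgroups of `M` are cyclic for `q ∉ σ(M)` -/
def PCyc : Prop :=
  ∀ (M : Subgroup G) (q : ℕ), IsCoatom M → q.Prime → q ∉ sigma M → ∀ Y : Subgroup G, Y ≤ M →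
    M ≤ Subgroup.normalizer (Y : Set G) → IsPGroup q Y → IsCyclic ↥Y

/-- Z (pure): S1445 with a central subgroup -/
def PZ : Prop :=
  ∀ (K R Z : Subgroup G) (p : ℕ), p.Prime → R ≤ Subgroup.normalizer (K : Set G) →
    Group.IsSolvable ↥(K ⊔ R) → Odd (Nat.card ↥(K ⊔ R)) → Nat.card R = p →
    (Nat.card K).Coprime p → Z ≤ K → K ≤ Subgroup.centralizer (Z : Set G) →
    R ≤ Subgroup.normalizer (Z : Set G) →
    fittingOf K ⊓ Subgroup.centralizer (R : Set G) ≤ Z → ⁅K, R⁆ ≤ fittingOf K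

/-- FIT: `[L, A] ≤ F(M)` for normal `p'`-subgroups `L` of `M` -/
def PFit : Prop :=
  ∀ (M : Subgroup G) (p : ℕ) (A A₀ : Subgroup G), Exc M p A A₀ → ∀ L : Subgroup G, L ≤ M →
    M ≤ Subgroup.normalizer (L : Set G) → (Nat.card L).Coprime p → ⁅L, A⁆ ≤ fittingOf M

/-- GL2 (pure) -/
def PGL2 : Prop :=
  ∀ (B B₀ B₁ : Subgroup G) (q : ℕ) (a : G), q.Prime → IsElementaryAbelian q B →
    Nat.card B = q ^ 2 → B₀ ≤ B → B₁ ≤ B → Nat.card B₀ = q → Nat.card B₁ = q → B₀ ⊓ B₁ = ⊥ →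
    Group.IsSolvable ↥(Subgroup.normalizer (B : Set G)) →
    Odd (Nat.card ↥(Subgroup.normalizer (B : Set G))) →
    a ∈ Subgroup.normalizer (B : Set G) → a ∈ Subgroup.normalizer (B₀ : Set G) →
    a ∈ Subgroup.centralizer (B₁ : Set G) → a ∉ Subgroup.centralizer (B₀ : Set G) →
    Subgroup.normalizer (B : Set G) ≤ Subgroup.normalizer (B₀ : Set G) ∨
      (Subgroup.normalizer (B : Set G) ≤ Subgroup.normalizer (B₁ : Set G) ∧
        ∃ u ∈ Subgroup.normalizer (B : Set G), IsPGroup q ↥(Subgroup.zpowers u) ∧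
          u ∉ Subgroup.centralizer (B : Set G))

/-- T9A: the bad case gives the configuration -/
def PSigA : Prop :=
  ∀ (M : Subgroup G) (p : ℕ) (A A₀ : Subgroup G), Exc M p A A₀ → ∀ (q : ℕ), q.Prime → q ≠ p →
    q ∉ sigma M → ∀ Y : Subgroup G, Y ≤ M → M ≤ Subgroup.normalizer (Y : Set G) → IsPGroup q Y →
    ¬ Y ≤ Subgroup.centralizer (A : Set G) → ∃ B B₀ B₁ : Subgroup G, SigmaCfg M p A q B B₀ B₁

/-- T9B1: in the configuration, `N_G(C_A(B₀)) ≤ M` -/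
def PSig1 : Prop :=
  ∀ (M : Subgroup G) (p : ℕ) (A A₀ : Subgroup G), Exc M p A A₀ → ∀ (q : ℕ) (B B₀ B₁ : Subgroup G),
    SigmaCfg M p A q B B₀ B₁ →
    Subgroup.normalizer ((A ⊓ Subgroup.centralizer (B₀ : Set G) : Subgroup G) : Set G) ≤ M

/-- T9B2: the configuration with `N_G(C_A(B₀)) ≤ M` is impossible -/
def PSig2 : Prop :=
  ∀ (M : Subgroup G) (p : ℕ) (A A₀ : Subgroup G), Exc M p A A₀ → ∀ (q : ℕ) (B B₀ B₁ : Subgroup G),
    SigmaCfg M p A q B B₀ B₁ →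
    Subgroup.normalizer ((A ⊓ Subgroup.centralizer (B₀ : Set G) : Subgroup G) : Set G) ≤ M → False

/-- CEN: `A` centralizes the normal `q`-subgroups of `M`, `q ∉ σ(M)`, `q ≠ p` -/
def PCen : Prop :=
  ∀ (M : Subgroup G) (p : ℕ) (A A₀ : Subgroup G), Exc M p A A₀ → ∀ (q : ℕ), q.Prime → q ≠ p →
    q ∉ sigma M → ∀ Y : Subgroup G, Y ≤ M → M ≤ Subgroup.normalizer (Y : Set G) → IsPGroup q Y →
    Y ≤ Subgroup.centralizer (A : Set G)

/-- NORM (B&G 11.7) -/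
def PNorm : Prop :=
  ∀ (M : Subgroup G) (p : ℕ) (A A₀ : Subgroup G), Exc M p A A₀ →
    M ≤ Subgroup.normalizer ((sigmaCore M ⊔ A : Subgroup G) : Set G)

/-- C3 (B&G 12.3) -/
def PC3 : Prop :=
  ∀ (M Ms : Subgroup G) (p : ℕ) (A A₀ D : Subgroup G), IsCoatom M → IsCoatom Ms → Ms ≠ M →
    p.Prime → A ≤ M → IsElementaryAbelian p A → Nat.card A = p ^ 2 → A₀ ≤ A → Nat.card A₀ = p →
    Subgroup.normalizer (A₀ : Set G) ≤ Ms → D ≤ M → M ≤ Subgroup.normalizer (D : Set G) →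
    (∀ q : ℕ, q.Prime → q ∣ Nat.card D → q ∈ sigma M ∧ q ≠ p) →
    D ⊓ Ms ≤ Subgroup.centralizer (A : Set G)

/-- S5II -/
def PS5 : Prop :=
  ∀ (M : Subgroup G) (p : ℕ) (A : Subgroup G), IsCoatom M → p.Prime → p ∉ sigma M → A ≤ M →
    MaxEA p A → Nat.card A = p ^ 2 → sigmaCore M ≤ Subgroup.centralizer (A : Set G) →
    ∀ (q : ℕ), q.Prime → q ≠ p → q ∉ sigma M → ∀ Y : Subgroup G, Y ≤ M →
    M ≤ Subgroup.normalizer (Y : Set G) → IsPGroup q Y → Y ≤ Subgroup.centralizer (A : Set G)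

/-- S5I (pure) -/
def PS5I : Prop :=
  ∀ (M A : Subgroup G) (p : ℕ), p.Prime → Group.IsNilpotent ↥⁅M, M⁆ → A ≤ M → IsPGroup p A →
    (∀ (q : ℕ), q.Prime → q ≠ p → ∀ Y : Subgroup G, Y ≤ M → M ≤ Subgroup.normalizer (Y : Set G) →
      IsPGroup q Y → Y ≤ Subgroup.centralizer (A : Set G)) →
    ∃ T : Subgroup G, T ≤ M ∧ M ≤ Subgroup.normalizer (T : Set G) ∧ IsPGroup p T ∧ A ≤ T

/-- T11 (B&G 12.5(e)) -/
def PE : Prop :=
  ∀ (M : Subgroup G) (p : ℕ) (A A₀ : Subgroup G), Exc M p A A₀ → ∀ H : Subgroup G, IsCoatom H →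
    H ≠ M → A ≤ H → sigmaCore M ⊓ H = ⊥

variable {G}

theorem Exc.cent_le {M : Subgroup G} {p : ℕ} {A A₀ : Subgroup G} (h : Exc M p A A₀) :
    Subgroup.centralizer (A : Set G) ≤ M := by
  obtain ⟨-, -, -, -, -, -, -, hA₀, -, hN⟩ := h
  refine le_trans ?_ hN
  intro x hx
  rw [Subgroup.mem_normalizer_iff]
  intro y
  constructor
  · intro hy
    have h1 : y * x = x * y := (Subgroup.mem_centralizer_iff.mp hx) y (hA₀ hy)
    have h2 : x * y * x⁻¹ = y := by rw [← h1]; group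
    rw [h2]; exact hy
  · intro hy
    have hy' : x * y * x⁻¹ ∈ A := hA₀ hy
    have h1 : x * y * x⁻¹ * x = x * (x * y * x⁻¹) := (Subgroup.mem_centralizer_iff.mp hx) _ hy'
    have h2 : y = x * y * x⁻¹ := by
      have h3 : x * y = x * (x * y * x⁻¹) := by rw [← h1]; group
      exact mul_left_cancel h3
    rw [h2]; exact hy

end Cfsg.Agent.Lib.Helper41.BG11
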