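import Cfsg.Agent.Lib.Helper41.BG11Defs
import Cfsg.Agent.Lib.Helper8.BG10P5
import Cfsg.Agent.Lib.Helper8.BG10P6

/-!
# B&G Section 11: kit (helper41) -- `exc_mk` and the unconditional H5, H6
-/

set_option autoImplicit false

open Cfsg Cfsg.Agent.Lib.Helper32 Cfsg.Agent.Lib.Helper32.BG10 Cfsg.Agent.Lib.Helper3.BG12

namespace Cfsg.Agent.Lib.Helper41.BG11

universe u

variable {G : Type u} [Group G] [Finite G]

theorem h5_of (hG : IsMinSimpleOddOrder G) : H5 G := Cfsg.Agent.Lib.Helper8.BG10.bg10_5 hG (ut_of hG)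

theorem h6_of (hG : IsMinSimpleOddOrder G) : H6 G :=
  Cfsg.Agent.Lib.Helper8.BG10.bg10_6 hG (ut_of hG) (h5_of hG)

/-- `p ∉ σ(M)` and `A ≤ M` elementary abelian of order `p ^ 2`: `M` has `p`-rank exactly 2 -/
theorem rank_two_of (hG : IsMinSimpleOddOrder G) {M : Subgroup G} (hM : IsCoatom M) {p : ℕ}
    (hp : p.Prime) (hσ : p ∉ sigma M) {A : Subgroup G} (hAM : A ≤ M)
    (hAe : IsElementaryAbelian p A) (hAc : Nat.card A = p ^ 2) :
    PRankLE p 2 ↥M ∧ ¬ PRankLE p 1 ↥M := by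
  constructor
  · by_contra h
    exact hσ (alpha_sub_sigma hG (ut_of hG) hM ⟨hp, h⟩)
  · intro h
    have e : ↥(A.subgroupOf M) ≃* ↥A := Subgroup.subgroupOfEquivOfLe hAM
    have hc : IsMulCommutative ↥(A.subgroupOf M) := by
      have hA1 : IsMulCommutative ↥A := hAe.1
      refine ⟨⟨fun x y => ?_⟩⟩
      apply e.injective
      rw [map_mul, map_mul]
      exact hA1.is_comm.comm (e x) (e y)
    have h1 := h (A.subgroupOf M) hc (by
      intro a ha
      have ha' : (a : G) ∈ A := ha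
      have := hAe.2 (a : G) ha'
      exact Subtype.ext (by simpa using this))
    rw [Nat.card_congr e.toEquiv, hAc, pow_one] at h1
    have : p < p ^ 2 := by
      have := hp.one_lt
      nlinarith
    omega

/-- the constructor of exceptional quadruples -/
theorem exc_mk (hG : IsMinSimpleOddOrder G) {M : Subgroup G} (hM : IsCoatom M) {p : ℕ}
    (hp : p.Prime) (hσ : p ∉ sigma M) {A A₀ : Subgroup G} (hAM : A ≤ M)
    (hAe : IsElementaryAbelian p A) (hAc : Nat.card A = p ^ 2) (hA₀ : A₀ ≤ A)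
    (hA₀c : Nat.card A₀ = p) (hN : Subgroup.normalizer (A₀ : Set G) ≤ M) : Exc M p A A₀ := by
  have : Fact p.Prime := ⟨hp⟩
  obtain ⟨hr2, hr1⟩ := rank_two_of hG hM hp hσ hAM hAe hAc
  obtain ⟨hid, hmax⟩ := h5_of hG M hM p hσ hr2 hr1
  exact ⟨hM, hp, hσ, hAM, ⟨hAe, fun B hB hAB => hmax A hAM hAe hAc B hB hAB⟩, hAc, hid, hA₀,
    hA₀c, hN⟩

/-- `p ∈ τ₂(M)` for an exceptional quadruple -/
theorem Exc.tau2 (hG : IsMinSimpleOddOrder G) {M : Subgroup G} {p : ℕ} {A A₀ : Subgroup G}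
    (h : Exc M p A A₀) : p ∈ tau2 M := by
  obtain ⟨hM, hp, hσ, hAM, hAe, hAc, -, -, -, -⟩ := h
  obtain ⟨hr2, hr1⟩ := rank_two_of hG hM hp hσ hAM hAe.1 hAc
  exact ⟨hp, hσ, hr2, hr1⟩

end Cfsg.Agent.Lib.Helper41.BG11
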