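import Cfsg.Agent.Lib.Helper41.BG11Aux

/-!
# B&G Section 11: piece T9B2 (helper41)
-/

set_option autoImplicit false

open Cfsg Cfsg.Agent.Lib.Helper32 Cfsg.Agent.Lib.Helper32.BG10 Cfsg.Agent.Lib.Helper3.BG12
open Cfsg.Agent.Lib.Helper41.BG11

namespace Cfsg.Agent.Lib.Helper41.BG11

universe u

variable {G : Type u} [Group G] [Finite G]

/-- conjugation by `x = c⁻¹ u` agrees with conjugation by `u` on `B`, for all powers -/
theorem conj_pow_agree {B : Subgroup G} {u c y : G} (hu : u ∈ Subgroup.normalizer (B : Set G))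
    (hc : c ∈ Subgroup.centralizer (B : Set G)) (hy : y = c⁻¹ * u) (k : ℕ) :
    ∀ b ∈ B, y ^ k * b * (y ^ k)⁻¹ = u ^ k * b * (u ^ k)⁻¹ := by
  induction k with
  | zero => intro b _; simp
  | succ k ih =>
    intro b hb
    have h1 : u ^ k * b * (u ^ k)⁻¹ ∈ B :=
      conj_mem_of_mem_normalizer ((Subgroup.normalizer (B : Set G)).pow_mem hu k) hb
    have h2 : u * (u ^ k * b * (u ^ k)⁻¹) * u⁻¹ ∈ B := conj_mem_of_mem_normalizer hu h1
    have h3 := (Subgroup.mem_centralizer_iff.mp hc) _ h2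
    have e1 : y ^ (k + 1) * b * (y ^ (k + 1))⁻¹ = y * (y ^ k * b * (y ^ k)⁻¹) * y⁻¹ := by
      rw [pow_succ']; group
    have e2 : u ^ (k + 1) * b * (u ^ (k + 1))⁻¹ = u * (u ^ k * b * (u ^ k)⁻¹) * u⁻¹ := by
      rw [pow_succ']; group
    rw [e1, ih b hb, e2]
    generalize u ^ k * b * (u ^ k)⁻¹ = t at h3 ⊢
    have e3 : y * t * y⁻¹ = c⁻¹ * ((u * t * u⁻¹) * c) := by rw [hy]; group
    rw [e3, h3]; group

theorem t9b2 (hG : IsMinSimpleOddOrder G) (hSyl : PSyl G) (hGL2 : PGL2 G) : PSig2 G := by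
  intro M p A A₀ hE q B B₀ B₁ hcfg hN
  have hEp := hE
  obtain ⟨hM, hp, hpσ, hAM, hmax, hAc, hid, hA₀A, hA₀c, hNA₀⟩ := hE
  obtain ⟨hq, hqp, hqσ, hB₀M, hMB₀, hB₀c, hBM, hBe, hBc, hB₀B, hB₁B, hB₁c, hinf, hAB, hB₁A,
    hB₀A⟩ := hcfg
  have : Fact p.Prime := ⟨hp⟩
  have : Fact q.Prime := ⟨hq⟩
  have hB₀ne : B₀ ≠ ⊥ := ne_bot_of_card_prime hq hB₀c
  have hNB₀ : Subgroup.normalizer (B₀ : Set G) = M :=
    normalizer_eq_of_coatom hG hM hB₀ne hB₀M hMB₀
  have hEq : Exc M q B B₀ := exc_mk hG hM hq hqσ hBM hBe hBc hB₀B hB₀c hNB₀.le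
  have hBq : IsPGroup q B := isPGroup_of_elemAb hBe
  have hBsup : B₀ ⊔ B₁ = B := sup_eq_of_card hq hBc hB₀B hB₁B hB₀c hB₁c hinf
  obtain ⟨Q, hQ, hBQ⟩ := exists_sylSet_ge hBq hBM
  obtain ⟨-, hQr⟩ := hSyl M q B B₀ hEq Q hQ
  obtain ⟨hQΩ, hNQ⟩ := hQr hBQ
  -- N(Q) ≤ N(B)
  have hNQB : Subgroup.normalizer (Q : Set G) ≤ Subgroup.normalizer (B : Set G) := by
    intro g hg
    apply mem_normalizer_of_conj_mem
    intro b hb
    have h1 : g * b * g⁻¹ ∈ Q := conj_mem_of_mem_normalizer hg (hBQ hb)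
    refine (hQΩ _ h1).mp ?_
    rw [conj_pow, hBe.2 b hb]; group
  have hNBn : ¬ Subgroup.normalizer (B : Set G) ≤ Subgroup.normalizer (B₀ : Set G) := by
    intro h
    exact hNQ (hNQB.trans (h.trans hNB₀.le))
  -- a ∈ A not centralizing B₀
  obtain ⟨a, haA, haB₀⟩ : ∃ a ∈ A, a ∉ Subgroup.centralizer (B₀ : Set G) := by
    by_contra hcon
    push Not at hcon
    apply hB₀A
    intro b hb
    rw [Subgroup.mem_centralizer_iff]
    intro a ha
    exact ((Subgroup.mem_centralizer_iff.mp (hcon a ha)) b hb).symm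
  have haNB : a ∈ Subgroup.normalizer (B : Set G) := hAB haA
  have haNB₀ : a ∈ Subgroup.normalizer (B₀ : Set G) := hMB₀ (hAM haA)
  have haB₁ : a ∈ Subgroup.centralizer (B₁ : Set G) := by
    rw [Subgroup.mem_centralizer_iff]
    intro b hb
    exact ((Subgroup.mem_centralizer_iff.mp (hB₁A hb)) a haA).symm
  have hBne : B ≠ ⊥ := fun h => hB₀ne (eq_bot_iff.mpr (h ▸ hB₀B))
  have hBtop : B ≠ ⊤ := fun h => hM.1 (top_le_iff.mp (h ▸ hBM))
  have hNBtop : Subgroup.normalizer (B : Set G) ≠ ⊤ := minSimple_normalizer_ne_top hG hBne hBtop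
  rcases hGL2 B B₀ B₁ q a hq hBe hBc hB₀B hB₁B hB₀c hB₁c hinf (minSimple_solvable hG hNBtop)
    (minSimple_odd_sub hG _) haNB haNB₀ haB₁ haB₀ with h | ⟨-, u, huN, huq, huC⟩
  · exact hNBn h
  -- the centralizer of B
  set C : Subgroup G := Subgroup.centralizer (B : Set G) with hC
  have hCB₀ : C ≤ Subgroup.centralizer (B₀ : Set G) :=
    Subgroup.centralizer_le (by exact_mod_cast hB₀B)
  have hCM : C ≤ M := hCB₀.trans ((centralizer_le_normalizer' B₀).trans hNB₀.le)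
  set A₂ : Subgroup G := A ⊓ Subgroup.centralizer (B₀ : Set G) with hA₂
  have hA₂C : A₂ ≤ C := by
    intro x hx
    rw [hC, Subgroup.mem_centralizer_iff]
    have hx0 : ∀ b ∈ B₀, b * x = x * b := Subgroup.mem_centralizer_iff.mp hx.2
    have hx1 : ∀ b ∈ B₁, b * x = x * b := fun b hb =>
      ((Subgroup.mem_centralizer_iff.mp (hB₁A hb)) x hx.1).symm
    have hle : B₀ ⊔ B₁ ≤ Subgroup.centralizer ({x} : Set G) := by
      refine sup_le ?_ ?_
      · intro b hb
        rw [Subgroup.mem_centralizer_iff]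
        intro y hy
        rw [Set.mem_singleton_iff] at hy
        subst hy
        exact (hx0 b hb).symm
      · intro b hb
        rw [Subgroup.mem_centralizer_iff]
        intro y hy
        rw [Set.mem_singleton_iff] at hy
        subst hy
        exact (hx1 b hb).symm
    intro b hb
    have := (Subgroup.mem_centralizer_iff.mp (hle (hBsup ▸ hb))) x rfl
    exact this.symm
  have hAp : IsPGroup p A := isPGroup_of_elemAb hmax.1
  have hA₂p : IsPGroup p A₂ := hAp.to_le inf_le_left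
  obtain ⟨Pc, hPc, hA₂Pc⟩ := exists_sylSet_ge hA₂p hA₂C
  have hPcp : IsPGroup p Pc := isPGroup_of_mem_sylSet hPc
  obtain ⟨P', hP', hPcP'⟩ := exists_sylSet_ge hPcp (hPc.1.trans hCM)
  obtain ⟨P, hP, hAP⟩ := exists_sylSet_ge hAp hAM
  obtain ⟨m, hmM, hmP⟩ := sylSet_conj hP hP'
  obtain ⟨-, hPr⟩ := hSyl M p A A₀ hEp P hP
  obtain ⟨hPΩ, -⟩ := hPr hAP
  -- the elements of order p of Pc are in cj m A₂
  have hΩ1 : ∀ x ∈ Pc, x ^ p = 1 → x ∈ cj m A₂ := by
    intro x hx hxp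
    rw [mem_cj]
    have h1 : x ∈ cj m P := hmP ▸ hPcP' hx
    rw [mem_cj] at h1
    have h2 : m⁻¹ * x * m ∈ A := by
      refine (hPΩ _ h1).mp ?_
      have : m⁻¹ * x * m = m⁻¹ * x * m⁻¹⁻¹ := by group
      rw [this, conj_pow, hxp]; group
    refine ⟨h2, ?_⟩
    have hxC : x ∈ Subgroup.centralizer (B₀ : Set G) := hCB₀ (hPc.1 hx)
    have hm' : m⁻¹ ∈ Subgroup.normalizer (B₀ : Set G) :=
      (Subgroup.normalizer (B₀ : Set G)).inv_mem (hMB₀ hmM)
    have := conj_mem_centralizer hm' hxC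
    simpa using this
  have hA₂cj : A₂ = cj m A₂ :=
    Subgroup.eq_of_le_of_card_ge (fun x hx => hΩ1 x (hA₂Pc hx) (hmax.1.2 x hx.1))
      (by rw [card_cj])
  have hNPc : Subgroup.normalizer (Pc : Set G) ≤ Subgroup.normalizer (A₂ : Set G) := by
    intro g hg
    apply mem_normalizer_of_conj_mem
    intro x hx
    have h1 : g * x * g⁻¹ ∈ Pc := conj_mem_of_mem_normalizer hg (hA₂Pc hx)
    rw [hA₂cj]
    refine hΩ1 _ h1 ?_
    rw [conj_pow, hmax.1.2 x hx.1]; group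
  -- Frattini
  have huNC : u ∈ Subgroup.normalizer (C : Set G) := normalizer_le_normalizer_centralizer B huN
  obtain ⟨c, hcC, hc⟩ := sylSet_conj hPc (cj_mem_sylSet huNC hPc)
  set x : G := c⁻¹ * u with hx
  have hxN : x ∈ Subgroup.normalizer (Pc : Set G) := by
    rw [← cj_eq_self_iff, hx, cj_mul, ← hc, cj_inv_cj]
  have hxM : x ∈ M := hN (hNPc hxN)
  have hxNB : x ∈ Subgroup.normalizer (B : Set G) :=
    (Subgroup.normalizer (B : Set G)).mul_mem
      ((Subgroup.normalizer (B : Set G)).inv_mem (centralizer_le_normalizer' B hcC)) huN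
  have hxC : x ∉ C := by
    intro h
    apply huC
    have : u = c * x := by rw [hx]; group
    rw [this]
    exact C.mul_mem hcC h
  -- a power of u is trivial
  obtain ⟨e, he⟩ := huq ⟨u, Subgroup.mem_zpowers u⟩
  have he' : u ^ q ^ e = 1 := by simpa using congrArg Subtype.val he
  have hxe : x ^ q ^ e ∈ C := by
    rw [hC, Subgroup.mem_centralizer_iff]
    intro b hb
    have h1 := conj_pow_agree huN hcC hx (q ^ e) b hb
    rw [he'] at h1
    have h2 : x ^ q ^ e * b * (x ^ q ^ e)⁻¹ = b := by rw [h1]; group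
    calc b * x ^ q ^ e = (x ^ q ^ e * b * (x ^ q ^ e)⁻¹) * x ^ q ^ e := by rw [h2]
      _ = x ^ q ^ e * b := by group
  -- the q-part of x
  set n := orderOf x with hn
  have hn0 : n ≠ 0 := (orderOf_pos x).ne'
  set mm := n / q ^ n.factorization q with hmm
  have hnm : q ^ n.factorization q * mm = n := Nat.ordProj_mul_ordCompl_eq_self n q
  have hcop : Nat.Coprime q mm := Nat.coprime_ordCompl hq hn0
  set w : G := x ^ mm with hw
  have hwM : w ∈ M := M.pow_mem hxM _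
  have hwNB : w ∈ Subgroup.normalizer (B : Set G) :=
    (Subgroup.normalizer (B : Set G)).pow_mem hxNB _
  have hwq : IsPGroup q (Subgroup.zpowers w) := by
    have hwo : w ^ q ^ n.factorization q = 1 := by
      rw [hw, ← pow_mul, mul_comm, hnm, hn, pow_orderOf_eq_one]
    intro g
    obtain ⟨k, hk⟩ := g.2
    refine ⟨n.factorization q, Subtype.ext ?_⟩
    simp only [Subgroup.coe_pow, Subgroup.coe_one]
    rw [← hk]
    show (w ^ k) ^ q ^ n.factorization q = 1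
    rw [← zpow_natCast, ← zpow_mul, mul_comm, zpow_mul, zpow_natCast, hwo, one_zpow]
  have hwC : w ∉ C := by
    intro h
    apply hxC
    have hcop' : Nat.Coprime (q ^ e) mm := Nat.Coprime.pow_left e hcop
    have hb : (q ^ e : ℤ) * Nat.gcdA (q ^ e) mm + mm * Nat.gcdB (q ^ e) mm = 1 := by
      have := Nat.gcd_eq_gcd_ab (q ^ e) mm
      rw [hcop'] at this
      push_cast at this
      linarith
    have : x = (x ^ q ^ e) ^ Nat.gcdA (q ^ e) mm * (x ^ mm) ^ Nat.gcdB (q ^ e) mm := by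
      rw [← zpow_natCast, ← zpow_natCast, ← zpow_mul, ← zpow_mul, ← zpow_add]
      push_cast
      rw [hb, zpow_one]
    rw [this]
    exact C.mul_mem (C.zpow_mem hxe _) (C.zpow_mem h _)
  -- B ⊔ ⟨w⟩ is a q-subgroup of M
  have hwz : Subgroup.zpowers w ≤ Subgroup.normalizer (B : Set G) := by
    rw [Subgroup.zpowers_le]; exact hwNB
  have hsupq : IsPGroup q (Subgroup.zpowers w ⊔ B : Subgroup G) :=
    hwq.to_sup_of_normal_right' hBq hwz
  have hsupM : Subgroup.zpowers w ⊔ B ≤ M := sup_le (by rw [Subgroup.zpowers_le]; exact hwM) hBM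
  obtain ⟨Q', hQ', hle⟩ := exists_sylSet_ge hsupq hsupM
  obtain ⟨hQ'c, -⟩ := hSyl M q B B₀ hEq Q' hQ'
  apply hwC
  rw [hC, Subgroup.mem_centralizer_iff]
  intro b hb
  have hw' : w ∈ Q' := hle (le_sup_left (a := Subgroup.zpowers w) (Subgroup.mem_zpowers w))
  have hb' : b ∈ Q' := hle (le_sup_right (a := Subgroup.zpowers w) hb)
  have := hQ'c.is_comm.comm ⟨b, hb'⟩ ⟨w, hw'⟩
  exact congrArg Subtype.val this

end Cfsg.Agent.Lib.Helper41.BG11
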