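import Cfsg.Agent.Lib.Helper41.CL2

set_option autoImplicit false
open Pointwise

namespace Cfsg.Agent.Lib.Helper41.CL

open Cfsg.Agent.Lib.Helper58

variable {G : Type*} [Group G]

theorem step_aux {p : ℕ} [Fact p.Prime] [Finite G] (hP : IsPGroup p G) (F B A₁ : Subgroup G)
    (hFB : ((F ⊔ B : Subgroup G) : Set G) = (F : Set G) * (B : Set G))
    (hBab : B ≤ Subgroup.centralizer (B : Set G))
    (hAB : ((A₁ ⊔ B : Subgroup G) : Set G) = (A₁ : Set G) * (B : Set G))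
    (hA₁ : IsMA A₁) (hF : F ≤ Subgroup.normalizer (A₁ : Set G))
    (hB : ¬ B ≤ Subgroup.normalizer (A₁ : Set G)) :
    ∃ A₂, IsMA A₂ ∧ F ≤ Subgroup.normalizer (A₂ : Set G) ∧
      Nat.card ↥(coreB B A₁) < Nat.card ↥(coreB B A₂) := by
  have hFA : ∀ f ∈ F, cj f A₁ = A₁ := fun f hf => cj_eq_of_mem_normalizer (hF hf)
  have hsw1 : ∀ f ∈ F, ∀ b ∈ B, ∃ b' ∈ B, ∃ f' ∈ F, f * b = b' * f' :=
    fun f hf b hb => swap1 hFB hf hb
  have hsw2 : ∀ b ∈ B, ∀ f ∈ F, ∃ f' ∈ F, ∃ b' ∈ B, b * f = f' * b' :=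
    fun b hb f hf => swap2 hFB hf hb
  obtain ⟨N, hNdef⟩ : ∃ N, N = coreB B A₁ := ⟨_, rfl⟩
  obtain ⟨R, hRdef⟩ : ∃ R, R = clB B A₁ := ⟨_, rfl⟩
  rw [← hNdef]
  have hAm := hA₁.member
  have hAab := hA₁.abelian
  have hNA : N ≤ A₁ := by rw [hNdef]; exact coreB_le_self B A₁
  have hAR : A₁ ≤ R := by rw [hRdef]; exact self_le_clB B A₁
  have hNR : N ≤ R := le_trans hNA hAR
  have hBN : ∀ b ∈ B, cj b N ≤ N := fun b hb => by rw [hNdef]; exact cj_coreB_le hb
  have hFN : ∀ f ∈ F, cj f N ≤ N := fun f hf => by rw [hNdef]; exact cj_coreB_le_of hsw1 hFA hf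
  have hBR : ∀ b ∈ B, cj b R ≤ R := fun b hb => by rw [hRdef]; exact cj_clB_le hb
  have hFR : ∀ f ∈ F, cj f R ≤ R := fun f hf => by rw [hRdef]; exact cj_clB_le_of hsw1 hFA hf
  have hXN : F ⊔ B ≤ Subgroup.normalizer (N : Set G) :=
    sup_le (le_normalizer_of_cj_le hFN) (le_normalizer_of_cj_le hBN)
  have hXR : F ⊔ B ≤ Subgroup.normalizer (R : Set G) :=
    sup_le (le_normalizer_of_cj_le hFR) (le_normalizer_of_cj_le hBR)
  have hcjR : ∀ b ∈ B, cj b A₁ ≤ R := fun b hb => by rw [hRdef]; exact cj_le_clB hb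
  have hNcj : ∀ b ∈ B, N ≤ cj b A₁ := fun b hb => by rw [hNdef]; exact coreB_le hb
  have hRCN : R ≤ Subgroup.centralizer (N : Set G) := by
    rw [hRdef]
    apply clB_le
    intro b hb
    rw [Subgroup.le_centralizer_iff, cj_centralizer]
    exact le_trans (hNcj b hb) (cj_mono hAab)
  have hNCR : N ≤ Subgroup.centralizer (R : Set G) := Subgroup.le_centralizer_iff.mp hRCN
  have hRN : R ≤ Subgroup.normalizer (N : Set G) :=
    le_trans hRCN (Subgroup.centralizer_le_normalizer _)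
  have hne : N ≠ R := by
    intro h
    apply hB
    apply le_normalizer_of_cj_le
    intro b hb
    calc cj b A₁ ≤ R := hcjR b hb
      _ = N := h.symm
      _ ≤ A₁ := hNA
  obtain ⟨r, hrR, hrN, hr⟩ := exists_central_mod hP N R (F ⊔ B) hNR hne hXN hXR hRN
  have hRAB : R ≤ A₁ ⊔ B := by
    rw [hRdef]
    apply clB_le
    intro b hb x hx
    rw [mem_cj] at hx
    have : x = b * (b⁻¹ * x * b) * b⁻¹ := by group
    rw [this]
    exact (A₁ ⊔ B).mul_mem ((A₁ ⊔ B).mul_mem (Subgroup.mem_sup_right hb)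
      (Subgroup.mem_sup_left hx)) (Subgroup.mem_sup_right (B.inv_mem hb))
  have hdec : ∀ x ∈ R, ∃ a ∈ A₁, ∃ y ∈ R ⊓ B, x = a * y := by
    intro x hx
    have hx' : x ∈ ((A₁ ⊔ B : Subgroup G) : Set G) := hRAB hx
    rw [hAB] at hx'
    obtain ⟨a, ha, y, hy, rfl⟩ := Set.mem_mul.mp hx'
    refine ⟨a, ha, y, ⟨?_, hy⟩, rfl⟩
    have : y = a⁻¹ * (a * y) := by group
    rw [this]
    exact R.mul_mem (R.inv_mem (hAR ha)) hx
  obtain ⟨a, ha, y, hy, hray⟩ := hdec r hrR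
  have haN : a ∈ N := by
    rw [hNdef, mem_coreB]
    intro b hb
    have h1 := hr b⁻¹ (Subgroup.mem_sup_right (B.inv_mem hb))
    have hyb : b * y = y * b := (Subgroup.mem_centralizer_iff.mp (hBab hy.2)) b hb
    have h2 : b⁻¹ * r * b⁻¹⁻¹ * r⁻¹ = b⁻¹ * a * b * a⁻¹ := by
      rw [hray, inv_inv]
      calc b⁻¹ * (a * y) * b * (a * y)⁻¹ = b⁻¹ * a * (y * b) * y⁻¹ * a⁻¹ := by group
        _ = b⁻¹ * a * (b * y) * y⁻¹ * a⁻¹ := by rw [hyb]
        _ = b⁻¹ * a * b * a⁻¹ := by group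
    rw [h2] at h1
    have h3 : b⁻¹ * a * b = (b⁻¹ * a * b * a⁻¹) * a := by group
    rw [h3]
    exact A₁.mul_mem (hNA h1) ha
  obtain ⟨C₀, hC₀def⟩ : ∃ C₀, C₀ = N ⊔ (R ⊓ B) := ⟨_, rfl⟩
  have hNC₀ : N ≤ C₀ := by rw [hC₀def]; exact le_sup_left
  have hYC₀ : R ⊓ B ≤ C₀ := by rw [hC₀def]; exact le_sup_right
  have hrC₀ : r ∈ C₀ := by
    rw [hray]
    exact C₀.mul_mem (hNC₀ haN) (hYC₀ hy)
  have hC₀R : C₀ ≤ R := by rw [hC₀def]; exact sup_le hNR inf_le_left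
  have hNab : N ≤ Subgroup.centralizer (N : Set G) := le_trans hNR hRCN
  have hYab : R ⊓ B ≤ Subgroup.centralizer ((R ⊓ B : Subgroup G) : Set G) :=
    le_trans inf_le_right (le_trans hBab
      (Subgroup.centralizer_le (by exact_mod_cast (inf_le_right : R ⊓ B ≤ B))))
  have hC₀ab : C₀ ≤ Subgroup.centralizer (C₀ : Set G) := by
    rw [hC₀def]
    exact abelian_sup N (R ⊓ B) hNab hYab (le_trans inf_le_left hRCN)
  have hBB : ∀ b ∈ B, cj b B ≤ B := by
    intro b hb x hx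
    rw [mem_cj] at hx
    have : x = b * (b⁻¹ * x * b) * b⁻¹ := by group
    rw [this]
    exact B.mul_mem (B.mul_mem hb hx) (B.inv_mem hb)
  have hBC₀ : ∀ b ∈ B, cj b C₀ ≤ C₀ := by
    intro b hb
    rw [hC₀def, cj_sup]
    exact sup_le_sup (hBN b hb) (le_trans (cj_inf_le b R B) (inf_le_inf (hBR b hb) (hBB b hb)))
  have hRm : Cfsg.IsCentralizerLarge R := by
    rw [hRdef]
    unfold clB
    haveI : Nonempty B := ⟨1⟩
    exact member_iSup _ (fun b => member_cj _ hAm)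
  have hCRm := (cd_centralizer R hRm).1
  have hZR : R ⊓ Subgroup.centralizer (R : Set G) ≤ N := by
    have hZm := (cd_main R _ hRm hCRm).2.2.1
    have hZab : R ⊓ Subgroup.centralizer (R : Set G)
        ≤ Subgroup.centralizer ((R ⊓ Subgroup.centralizer (R : Set G) : Subgroup G) : Set G) :=
      le_trans inf_le_right (Subgroup.centralizer_le
        (by exact_mod_cast (inf_le_left : R ⊓ Subgroup.centralizer (R : Set G) ≤ R)))
    rw [hNdef]
    apply le_coreB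
    intro b hb
    apply (isMA_cj hA₁ b).maxab hZm hZab
    exact le_trans inf_le_right (Subgroup.centralizer_le (by exact_mod_cast hcjR b hb))
  have hC₀m : Cfsg.IsCentralizerLarge C₀ := by
    rw [isCentralizerLarge_iff]
    apply le_antisymm (cdm_le_max C₀)
    have hρk : Nat.card R * Nat.card ↥(Subgroup.centralizer (R : Set G))
        = Cfsg.maxCentralizerProduct G := (isCentralizerLarge_iff R).mp hRm
    have haq : Nat.card A₁ * Nat.card ↥(Subgroup.centralizer (A₁ : Set G))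
        = Cfsg.maxCentralizerProduct G := (isCentralizerLarge_iff A₁).mp hAm
    have hI : Nat.card N * Nat.card R ≤ Nat.card A₁ * Nat.card C₀ := by
      have h1 : Nat.card R
          ≤ Nat.card ((A₁ : Set G) * ((R ⊓ B : Subgroup G) : Set G) : Set G) := by
        apply Nat.card_mono (s := (R : Set G)) (Set.toFinite _)
        intro x hx
        obtain ⟨a', ha', y', hy', rfl⟩ := hdec x hx
        exact Set.mul_mem_mul ha' hy'
      have h2 := card_mul_set A₁ (R ⊓ B)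
      have h3 := card_mul_card_le N (R ⊓ B)
      rw [← hC₀def] at h3
      have h4 : Nat.card ↥(N ⊓ (R ⊓ B)) ≤ Nat.card ↥(A₁ ⊓ (R ⊓ B)) :=
        Subgroup.card_le_of_le (inf_le_inf_right _ hNA)
      have hi : 0 < Nat.card ↥(A₁ ⊓ (R ⊓ B)) := Nat.card_pos
      apply Nat.le_of_mul_le_mul_right _ hi
      calc Nat.card N * Nat.card R * Nat.card ↥(A₁ ⊓ (R ⊓ B))
          ≤ Nat.card N * Nat.card ((A₁ : Set G) * ((R ⊓ B : Subgroup G) : Set G) : Set G)
              * Nat.card ↥(A₁ ⊓ (R ⊓ B)) :=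
            Nat.mul_le_mul_right _ (Nat.mul_le_mul_left _ h1)
        _ = Nat.card A₁ * (Nat.card N * Nat.card ↥(R ⊓ B)) := by rw [mul_assoc, h2]; ring
        _ ≤ Nat.card A₁ * (Nat.card C₀ * Nat.card ↥(N ⊓ (R ⊓ B))) := Nat.mul_le_mul_left _ h3
        _ ≤ Nat.card A₁ * (Nat.card C₀ * Nat.card ↥(A₁ ⊓ (R ⊓ B))) :=
            Nat.mul_le_mul_left _ (Nat.mul_le_mul_left _ h4)
        _ = Nat.card A₁ * Nat.card C₀ * Nat.card ↥(A₁ ⊓ (R ⊓ B)) := by ring
    have hII : Nat.card C₀ * Nat.card ↥(Subgroup.centralizer (R : Set G))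
        ≤ Nat.card ↥(Subgroup.centralizer (C₀ : Set G)) * Nat.card N := by
      have h1 := card_mul_card_le C₀ (Subgroup.centralizer (R : Set G))
      have h2 : C₀ ⊔ Subgroup.centralizer (R : Set G) ≤ Subgroup.centralizer (C₀ : Set G) :=
        sup_le hC₀ab (Subgroup.centralizer_le (by exact_mod_cast hC₀R))
      have h3 : C₀ ⊓ Subgroup.centralizer (R : Set G) ≤ N :=
        le_trans (inf_le_inf_right _ hC₀R) hZR
      exact le_trans h1 (Nat.mul_le_mul (Subgroup.card_le_of_le h2) (Subgroup.card_le_of_le h3))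
    have hIII : Nat.card A₁ * Nat.card ↥(Subgroup.centralizer (R : Set G))
        ≤ Nat.card ↥(Subgroup.centralizer (A₁ : Set G)) * Nat.card N := by
      have h1 := card_mul_card_le (Subgroup.centralizer (A₁ : Set G) ⊓ R)
        (Subgroup.centralizer (R : Set G))
      have h2 : (Subgroup.centralizer (A₁ : Set G) ⊓ R) ⊔ Subgroup.centralizer (R : Set G)
          ≤ Subgroup.centralizer (A₁ : Set G) :=
        sup_le inf_le_left (Subgroup.centralizer_le (by exact_mod_cast hAR))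
      have h3 : (Subgroup.centralizer (A₁ : Set G) ⊓ R) ⊓ Subgroup.centralizer (R : Set G) ≤ N :=
        le_trans (inf_le_inf_right _ inf_le_right) hZR
      have h4 : Nat.card A₁ ≤ Nat.card ↥(Subgroup.centralizer (A₁ : Set G) ⊓ R) :=
        Subgroup.card_le_of_le (le_inf hAab hAR)
      exact le_trans (Nat.mul_le_mul_right _ h4) (le_trans h1
        (Nat.mul_le_mul (Subgroup.card_le_of_le h2) (Subgroup.card_le_of_le h3)))
    exact count_aux _ _ _ _ _ _ _ _ Nat.card_pos Nat.card_pos Nat.card_pos hI hII hIII haq hρk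
  obtain ⟨C₁, hC₁def⟩ : ∃ C₁, C₁ = coreB F C₀ := ⟨_, rfl⟩
  have hC₁C₀ : C₁ ≤ C₀ := by rw [hC₁def]; exact coreB_le_self F C₀
  have hC₁m : Cfsg.IsCentralizerLarge C₁ := by
    rw [hC₁def]
    unfold coreB
    haveI : Nonempty F := ⟨1⟩
    exact member_iInf _ (fun f => member_cj _ hC₀m)
  have hC₁ab : C₁ ≤ Subgroup.centralizer (C₁ : Set G) :=
    le_trans hC₁C₀ (le_trans hC₀ab (Subgroup.centralizer_le (by exact_mod_cast hC₁C₀)))
  have hFC₁ : ∀ f ∈ F, cj f C₁ ≤ C₁ := fun f hf => by rw [hC₁def]; exact cj_coreB_le hf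
  have hBC₀' : ∀ b ∈ B, cj b C₀ = C₀ := fun b hb => cj_eq_of_forall_le hBC₀ hb
  have hBC₁ : ∀ b ∈ B, cj b C₁ ≤ C₁ := fun b hb => by
    rw [hC₁def]; exact cj_coreB_le_of hsw2 hBC₀' hb
  have hNC₁ : N ≤ C₁ := by
    rw [hC₁def]
    apply le_coreB
    intro f hf
    have := cj_le_iff.mp (le_trans (hFN f⁻¹ (F.inv_mem hf)) hNC₀)
    rwa [inv_inv] at this
  have hrC₁ : r ∈ C₁ := by
    rw [hC₁def, mem_coreB]
    intro f hf
    have h1 := hr f⁻¹ (Subgroup.mem_sup_left (F.inv_mem hf))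
    rw [inv_inv] at h1
    have h2 : f⁻¹ * r * f = (f⁻¹ * r * f * r⁻¹) * r := by group
    rw [h2]
    exact C₀.mul_mem (hNC₀ h1) hrC₀
  refine ⟨C₁ ⊔ (A₁ ⊓ Subgroup.centralizer (C₁ : Set G)), rho hP hA₁ hC₁m hC₁ab, ?_, ?_⟩
  · apply le_normalizer_of_cj_le
    intro f hf
    rw [cj_sup]
    apply sup_le_sup (hFC₁ f hf)
    refine le_trans (cj_inf_le f _ _) (inf_le_inf (hFA f hf).le ?_)
    rw [← cj_centralizer, cj_eq_of_forall_le hFC₁ hf]
  · have hC₁core : C₁ ≤ coreB B (C₁ ⊔ (A₁ ⊓ Subgroup.centralizer (C₁ : Set G))) := by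
      apply le_coreB
      intro b hb
      have := cj_le_iff.mp (le_trans (hBC₁ b⁻¹ (B.inv_mem hb))
        (le_sup_left : C₁ ≤ C₁ ⊔ (A₁ ⊓ Subgroup.centralizer (C₁ : Set G))))
      rwa [inv_inv] at this
    by_contra hcon
    have heq := Subgroup.eq_of_le_of_card_ge (le_trans hNC₁ hC₁core) (not_lt.mp hcon)
    apply hrN
    rw [heq]
    exact hC₁core hrC₁

theorem step {p : ℕ} [Fact p.Prime] [Finite G] (hP : IsPGroup p G) (F B : Subgroup G)
    (hFB : ((F ⊔ B : Subgroup G) : Set G) = (F : Set G) * (B : Set G))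
    (hBab : B ≤ Subgroup.centralizer (B : Set G))
    (hB : ∀ A : Subgroup G, IsMA A → ((A ⊔ B : Subgroup G) : Set G) = (A : Set G) * (B : Set G))
    (hex : ∃ A : Subgroup G, IsMA A ∧ F ≤ Subgroup.normalizer (A : Set G)) :
    ∃ A : Subgroup G, IsMA A ∧ F ≤ Subgroup.normalizer (A : Set G)
      ∧ B ≤ Subgroup.normalizer (A : Set G) := by
  classical
  obtain ⟨A₀, hA₀, hFA₀⟩ := hex
  haveI : Nonempty {A : Subgroup G // IsMA A ∧ F ≤ Subgroup.normalizer (A : Set G)} :=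
    ⟨⟨A₀, hA₀, hFA₀⟩⟩
  obtain ⟨⟨A₁, hA₁, hFA₁⟩, hmax⟩ := Finite.exists_max
    (fun A : {A : Subgroup G // IsMA A ∧ F ≤ Subgroup.normalizer (A : Set G)} =>
      Nat.card ↥(coreB B A.1))
  refine ⟨A₁, hA₁, hFA₁, ?_⟩
  by_contra hB'
  obtain ⟨A₂, hA₂, hFA₂, hlt⟩ := step_aux hP F B A₁ hFB hBab (hB A₁ hA₁) hA₁ hFA₁ hB'
  have := hmax ⟨A₂, hA₂, hFA₂⟩
  simp only at this
  omega

end Cfsg.Agent.Lib.Helper41.CL
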