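import Mathlib

set_option autoImplicit false

namespace Cfsg.Agent.Lib.Helper41

open scoped commutatorElement

section Bimul

variable {W : Type*} [Group W]

/-- Bimultiplicativity of commutators when the four basic commutators are central. -/
lemma comm_bimul_central {g g' h h' : W}
    (c1 : ⁅g, h⁆ ∈ Subgroup.center W) (c2 : ⁅g, h'⁆ ∈ Subgroup.center W)
    (c3 : ⁅g', h⁆ ∈ Subgroup.center W) (c4 : ⁅g', h'⁆ ∈ Subgroup.center W) :
    ⁅g⁻¹ * g', h⁻¹ * h'⁆ = ⁅g', h⁆⁻¹ * ⁅g', h'⁆ * ⁅g, h'⁆⁻¹ * ⁅g, h⁆ := by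
  have e : ⁅g⁻¹ * g', h⁻¹ * h'⁆ =
      g⁻¹ * h⁻¹ * (⁅g', h⁆⁻¹ * ⁅g', h'⁆ * ⁅g, h'⁆⁻¹) * (g * h) := by
    simp only [commutatorElement_def]; group
  have hz : ⁅g', h⁆⁻¹ * ⁅g', h'⁆ * ⁅g, h'⁆⁻¹ ∈ Subgroup.center W :=
    mul_mem (mul_mem (inv_mem c3) c4) (inv_mem c2)
  have e2 : g⁻¹ * h⁻¹ * (g * h) = ⁅g, h⁆ := by
    have h1 : g⁻¹ * h⁻¹ * (g * h) = g⁻¹ * (h⁻¹ * ⁅g, h⁆ * h) * g := by
      simp only [commutatorElement_def]; group
    rw [h1, Subgroup.mem_center_iff.1 c1 h⁻¹, mul_assoc ⁅g, h⁆, inv_mul_cancel, mul_one,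
      Subgroup.mem_center_iff.1 c1 g⁻¹, mul_assoc, inv_mul_cancel, mul_one]
  rw [e, Subgroup.mem_center_iff.1 hz (g⁻¹ * h⁻¹), mul_assoc, e2]

end Bimul

/-- The center as a commutative group. -/
@[reducible] def centerCommGroup (W : Type*) [Group W] : CommGroup ↥(Subgroup.center W) :=
  { (inferInstance : Group ↥(Subgroup.center W)) with
    mul_comm := fun a b =>
      (inferInstance : IsMulCommutative (Subgroup.center W)).is_comm.comm a b }

section Main

variable {V : Type*} [Group V] [Finite V]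

/-- If `σ` acts fixed-point-freely on `Fix τ`, every element of `Fix τ` is of the form
`a₀⁻¹ σ(a₀)` with `a₀ ∈ Fix τ`. -/
lemma exists_eq_inv_mul_of_fpf (σ τ : MulAut V) (hst : ∀ v, σ (τ v) = τ (σ v))
    (hfix : ∀ v, σ v = v → τ v = v → v = 1) (a : V) (ha : τ a = a) :
    ∃ a₀, τ a₀ = a₀ ∧ a = a₀⁻¹ * σ a₀ := by
  let f : {v : V // τ v = v} → {v : V // τ v = v} := fun v =>
    ⟨(v : V)⁻¹ * σ v, by rw [map_mul, map_inv, ← hst, v.2]⟩
  have hinj : Function.Injective f := by
    intro v w hvw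
    have h1 : (v : V)⁻¹ * σ v = (w : V)⁻¹ * σ w := congrArg Subtype.val hvw
    have h2 : σ ((w : V) * (v : V)⁻¹) = (w : V) * (v : V)⁻¹ := by
      rw [map_mul, map_inv]
      have h3 : σ (v : V) = (v : V) * ((w : V)⁻¹ * σ w) := by rw [← h1]; group
      rw [h3]; group
    have h3 : τ ((w : V) * (v : V)⁻¹) = (w : V) * (v : V)⁻¹ := by
      rw [map_mul, map_inv, v.2, w.2]
    have h4 := hfix _ h2 h3
    rw [mul_inv_eq_one] at h4
    exact Subtype.ext h4.symm
  obtain ⟨a₀, ha₀⟩ := Finite.surjective_of_injective hinj ⟨a, ha⟩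
  exact ⟨a₀, a₀.2, (congrArg Subtype.val ha₀).symm⟩

/-- Two commuting automorphisms `σ`, `τ` of a finite nilpotent group with no common
nontrivial fixed point, such that each term of the upper central series is generated by its
`τ`-fixed and `σ`-fixed points: then `Fix τ` and `Fix σ` commute elementwise. -/
theorem commute_of_fix_gen [Group.IsNilpotent V] (σ τ : MulAut V)
    (hst : ∀ v, σ (τ v) = τ (σ v))
    (hfix : ∀ v, σ v = v → τ v = v → v = 1)
    (hgen : ∀ (j : ℕ), Subgroup.upperCentralSeries V j ≤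
      Subgroup.closure ({v | v ∈ Subgroup.upperCentralSeries V j ∧ τ v = v} ∪
        {v | v ∈ Subgroup.upperCentralSeries V j ∧ σ v = v})) :
    ∀ a b, τ a = a → σ b = b → Commute a b := by
  obtain ⟨n, hn⟩ := Group.IsNilpotent.nilpotent V
  have key : ∀ k, k ≤ n → ∀ a b, τ a = a → σ b = b →
      ⁅a, b⁆ ∈ Subgroup.upperCentralSeries V (n - k) := by
    intro k
    induction k with
    | zero => intro _ a b _ _; rw [Nat.sub_zero, hn]; exact Subgroup.mem_top _
    | succ k ih =>
      intro hk a b ha hb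
      have ih' := ih (by omega)
      obtain ⟨j, hj⟩ : ∃ j, n - (k+1) = j := ⟨_, rfl⟩
      have hj1 : n - k = j + 1 := by omega
      rw [hj]; rw [hj1] at ih'
      have hcen : ∀ z ∈ Subgroup.upperCentralSeries V (j+1),
          QuotientGroup.mk' (Subgroup.upperCentralSeries V j) z ∈
            Subgroup.center (V ⧸ Subgroup.upperCentralSeries V j) := by
        intro z hz
        rw [Subgroup.mem_center_iff]
        intro w
        obtain ⟨y, rfl⟩ := QuotientGroup.mk'_surjective (Subgroup.upperCentralSeries V j) w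
        have h0 := Subgroup.mem_upperCentralSeries_succ_iff.1 hz y
        have h1 : QuotientGroup.mk' (Subgroup.upperCentralSeries V j) ⁅z, y⁆ = 1 :=
          (QuotientGroup.eq_one_iff _).2 h0
        rw [map_commutatorElement, commutatorElement_eq_one_iff_commute] at h1
        exact h1.eq.symm
      have hσZ : ∀ z ∈ Subgroup.upperCentralSeries V (j+1), σ z ∈ Subgroup.upperCentralSeries V (j+1) := by
        intro z hz
        have h0 := Subgroup.comap_upperCentralSeries σ (j+1)
        rw [← h0] at hz; exact hz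
      have hτZ : ∀ z ∈ Subgroup.upperCentralSeries V (j+1), τ z ∈ Subgroup.upperCentralSeries V (j+1) := by
        intro z hz
        have h0 := Subgroup.comap_upperCentralSeries τ (j+1)
        rw [← h0] at hz; exact hz
      let _ := centerCommGroup (V ⧸ Subgroup.upperCentralSeries V j)
      let ρ : ↥(Subgroup.upperCentralSeries V (j+1)) →* ↥(Subgroup.center (V ⧸ Subgroup.upperCentralSeries V j)) :=
        ((QuotientGroup.mk' (Subgroup.upperCentralSeries V j)).comp
          (Subgroup.upperCentralSeries V (j+1)).subtype).codRestrict _ (fun z => hcen z z.2)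
      let σ' : ↥(Subgroup.upperCentralSeries V (j+1)) →* ↥(Subgroup.upperCentralSeries V (j+1)) :=
        (σ.toMonoidHom.comp (Subgroup.upperCentralSeries V (j+1)).subtype).codRestrict _
          (fun z => hσZ z z.2)
      let τ' : ↥(Subgroup.upperCentralSeries V (j+1)) →* ↥(Subgroup.upperCentralSeries V (j+1)) :=
        (τ.toMonoidHom.comp (Subgroup.upperCentralSeries V (j+1)).subtype).codRestrict _
          (fun z => hτZ z z.2)
      let ω : ↥(Subgroup.upperCentralSeries V (j+1)) →* ↥(Subgroup.center (V ⧸ Subgroup.upperCentralSeries V j)) :=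
        (ρ.comp σ')⁻¹ * ρ.comp (σ'.comp τ') * (ρ.comp τ')⁻¹ * ρ
      have hω : ∀ u : ↥(Subgroup.upperCentralSeries V (j+1)), ω u = 1 := by
        have hK : Subgroup.upperCentralSeries V (j+1) ≤ (ω.ker).map (Subgroup.upperCentralSeries V (j+1)).subtype := by
          refine le_trans (hgen (j+1)) ?_
          rw [Subgroup.closure_le]
          rintro v (⟨hv, hτv⟩ | ⟨hv, hσv⟩)
          · refine ⟨⟨v, hv⟩, ?_, rfl⟩
            rw [SetLike.mem_coe, MonoidHom.mem_ker]
            have e1 : τ' ⟨v, hv⟩ = ⟨v, hv⟩ := Subtype.ext hτv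
            simp only [ω, MonoidHom.mul_apply, MonoidHom.inv_apply, MonoidHom.comp_apply, e1]
            simp
          · refine ⟨⟨v, hv⟩, ?_, rfl⟩
            rw [SetLike.mem_coe, MonoidHom.mem_ker]
            have e1 : σ' ⟨v, hv⟩ = ⟨v, hv⟩ := Subtype.ext hσv
            have e2 : σ' (τ' ⟨v, hv⟩) = τ' ⟨v, hv⟩ := by
              apply Subtype.ext
              show σ (τ v) = τ v
              rw [hst, hσv]
            simp only [ω, MonoidHom.mul_apply, MonoidHom.inv_apply, MonoidHom.comp_apply, e1, e2]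
            simp
        intro u
        obtain ⟨u', hu', hu''⟩ := hK u.2
        have h0 : u' = u := Subtype.ext hu''
        rw [← h0]; exact MonoidHom.mem_ker.1 hu'
      obtain ⟨a₀, ha₀, rfl⟩ := exists_eq_inv_mul_of_fpf σ τ hst hfix a ha
      obtain ⟨b₀, hb₀, rfl⟩ := exists_eq_inv_mul_of_fpf τ σ (fun v => (hst v).symm)
        (fun v h1 h2 => hfix v h2 h1) b hb
      have hσa : τ (σ a₀) = σ a₀ := by rw [← hst, ha₀]
      have hτb : σ (τ b₀) = τ b₀ := by rw [hst, hb₀]
      have m1 := ih' a₀ b₀ ha₀ hb₀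
      have m2 := ih' a₀ (τ b₀) ha₀ hτb
      have m3 := ih' (σ a₀) b₀ hσa hb₀
      have m4 := ih' (σ a₀) (τ b₀) hσa hτb
      have hbi := comm_bimul_central
        (g := QuotientGroup.mk' (Subgroup.upperCentralSeries V j) a₀)
        (g' := QuotientGroup.mk' (Subgroup.upperCentralSeries V j) (σ a₀))
        (h := QuotientGroup.mk' (Subgroup.upperCentralSeries V j) b₀)
        (h' := QuotientGroup.mk' (Subgroup.upperCentralSeries V j) (τ b₀))
        (by rw [← map_commutatorElement]; exact hcen _ m1)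
        (by rw [← map_commutatorElement]; exact hcen _ m2)
        (by rw [← map_commutatorElement]; exact hcen _ m3)
        (by rw [← map_commutatorElement]; exact hcen _ m4)
      rw [← QuotientGroup.eq_one_iff]
      show QuotientGroup.mk' (Subgroup.upperCentralSeries V j) ⁅a₀⁻¹ * σ a₀, b₀⁻¹ * τ b₀⁆ = 1
      rw [map_commutatorElement, map_mul, map_mul, map_inv, map_inv, hbi]
      have hu := congrArg Subtype.val (hω ⟨⁅a₀, b₀⁆, m1⟩)
      have s1 : σ ⁅a₀, b₀⁆ = ⁅σ a₀, b₀⁆ := by rw [map_commutatorElement, hb₀]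
      have s2 : τ ⁅a₀, b₀⁆ = ⁅a₀, τ b₀⁆ := by rw [map_commutatorElement, ha₀]
      have s3 : σ (τ ⁅a₀, b₀⁆) = ⁅σ a₀, τ b₀⁆ := by
        rw [s2, map_commutatorElement, hτb]
      have hu' : (QuotientGroup.mk' (Subgroup.upperCentralSeries V j) (σ ⁅a₀, b₀⁆))⁻¹ *
          QuotientGroup.mk' (Subgroup.upperCentralSeries V j) (σ (τ ⁅a₀, b₀⁆)) *
          (QuotientGroup.mk' (Subgroup.upperCentralSeries V j) (τ ⁅a₀, b₀⁆))⁻¹ *
          QuotientGroup.mk' (Subgroup.upperCentralSeries V j) ⁅a₀, b₀⁆ = 1 := hu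
      rw [s3, s1, s2, map_commutatorElement, map_commutatorElement, map_commutatorElement,
        map_commutatorElement] at hu'
      exact hu'
  intro a b ha hb
  have h0 := key n le_rfl a b ha hb
  rw [Nat.sub_self, Subgroup.upperCentralSeries_zero, Subgroup.mem_bot] at h0
  exact commutatorElement_eq_one_iff_commute.1 h0

end Main

end Cfsg.Agent.Lib.Helper41
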