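import Mathlib
import Cfsg.Prelude.Def_Local
import Cfsg.Agent.Lib.Helper41.Cores

set_option autoImplicit false

namespace Cfsg.Agent.Lib.Helper41

open Cfsg

variable {G : Type*} [Group G]

/-- The order of the preimage of a subgroup of `G ⧸ N`. -/
theorem card_comap_mk [Finite G] (N : Subgroup G) [N.Normal] (K : Subgroup (G ⧸ N)) :
    Nat.card (K.comap (QuotientGroup.mk' N)) = Nat.card N * Nat.card K := by
  have h1 : (K.comap (QuotientGroup.mk' N)).index = K.index :=
    Subgroup.index_comap_of_surjective K (QuotientGroup.mk'_surjective N)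
  have h2 := Subgroup.card_mul_index (K.comap (QuotientGroup.mk' N))
  have h3 := Subgroup.card_mul_index K
  have h4 := Subgroup.card_eq_card_quotient_mul_card_subgroup N
  have hpos : 0 < K.index := Nat.pos_of_ne_zero (Subgroup.index_ne_zero_of_finite)
  have h5 : Nat.card (K.comap (QuotientGroup.mk' N)) * K.index = (Nat.card N * Nat.card K) * K.index := by
    rw [← h1, h2, h4, ← h3, h1]; ring
  exact Nat.eq_of_mul_eq_mul_right hpos h5

/-- `O_{p'}(G / O_{p'}(G)) = 1`. -/
theorem pPrimeCore_quotient_eq_bot [Finite G] (p : ℕ) :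
    pPrimeCore p (G ⧸ pPrimeCore p G) = ⊥ := by
  set D := pPrimeCore p G with hD
  set E := (pPrimeCore p (G ⧸ D)).comap (QuotientGroup.mk' D) with hE
  have hEn : E.Normal := by rw [hE]; infer_instance
  have hEc : (Nat.card E).Coprime p := by
    rw [hE, card_comap_mk]
    exact Nat.Coprime.mul_left (card_pPrimeCore_coprime p) (card_pPrimeCore_coprime p)
  have hED : E ≤ D := le_pPrimeCore E hEc
  rw [eq_bot_iff]
  intro x hx
  obtain ⟨g, rfl⟩ := QuotientGroup.mk'_surjective D x
  have hg : g ∈ E := hx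
  rw [Subgroup.mem_bot]
  exact (QuotientGroup.eq_one_iff g).mpr (hED hg)

/-- A finite group with a central `p`-subgroup `Z` of index prime to `p` splits as `Z × K`, where `K`
contains every element of order prime to `p`. -/
theorem central_sylow_complement [Finite G] {p : ℕ} [Fact p.Prime] (Z : Subgroup G)
    (hZc : ∀ z ∈ Z, ∀ c : G, c * z = z * c) (hZp : IsPGroup p Z) (hidx : ¬ p ∣ Z.index) :
    ∃ K : Subgroup G, (Nat.card K).Coprime p ∧ (∀ u : G, (orderOf u).Coprime p → u ∈ K) ∧
      ∀ c : G, ∃ z ∈ Z, ∃ k ∈ K, c = z * k := by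
  have hZn : Z.Normal := by
    constructor
    intro n hn g
    have : g * n * g⁻¹ = n := by rw [hZc n hn g]; group
    rw [this]; exact hn
  have hcop : Nat.Coprime (Nat.card Z) Z.index := by
    obtain ⟨n, hn⟩ := IsPGroup.iff_card.mp hZp
    rw [hn]
    exact Nat.Coprime.pow_left n ((Nat.Prime.coprime_iff_not_dvd Fact.out).mpr hidx)
  obtain ⟨K, hK⟩ := Subgroup.exists_right_complement'_of_coprime hcop
  have hKcard : (Nat.card K).Coprime p := by
    have h1 : Z.index = Nat.card K := hK.symm.index_eq_card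
    rw [← h1]
    exact ((Nat.Prime.coprime_iff_not_dvd Fact.out).mpr hidx).symm
  have hdec : ∀ c : G, ∃ z ∈ Z, ∃ k ∈ K, c = z * k := by
    intro c
    obtain ⟨⟨⟨z, hz⟩, ⟨k, hk⟩⟩, hzk⟩ := hK.2 c
    exact ⟨z, hz, k, hk, hzk.symm⟩
  refine ⟨K, hKcard, ?_, hdec⟩
  intro u hu
  obtain ⟨z, hz, k, hk, rfl⟩ := hdec u
  have hcomm : Commute z k := (hZc z hz k).symm
  set m := Nat.card K with hm
  have hkm : k ^ m = 1 := by
    have h1 : (⟨k, hk⟩ : K) ^ m = 1 := pow_card_eq_one'
    have h2 := congrArg Subtype.val h1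
    simpa using h2
  have hum : (z * k) ^ m = z ^ m := by
    rw [hcomm.mul_pow, hkm, mul_one]
  have h1 : (orderOf (z ^ m)).Coprime p := by
    rw [← hum]
    exact Nat.Coprime.coprime_dvd_left (orderOf_pow_dvd m) hu
  have hzp : ∀ w ∈ Z, ∃ j : ℕ, orderOf w = p ^ j := by
    intro w hw
    obtain ⟨j, hj⟩ := (IsPGroup.iff_orderOf.mp hZp) ⟨w, hw⟩
    exact ⟨j, by rw [← hj, Subgroup.orderOf_mk]⟩
  obtain ⟨j, hj⟩ := hzp (z ^ m) (Z.pow_mem hz m)
  have h2 : z ^ m = 1 := by
    rw [← orderOf_eq_one_iff, hj]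
    rw [hj] at h1
    rcases Nat.eq_zero_or_pos j with h0 | hpos
    · rw [h0, pow_zero]
    · exfalso
      have : p ∣ Nat.gcd (p ^ j) p := Nat.dvd_gcd (dvd_pow_self p hpos.ne') dvd_rfl
      rw [h1] at this
      exact (Fact.out : p.Prime).one_lt.ne' (Nat.dvd_one.mp this)
  obtain ⟨i, hi⟩ := hzp z hz
  have h3 : orderOf z ∣ m := orderOf_dvd_of_pow_eq_one h2
  have h4 : z = 1 := by
    rw [← orderOf_eq_one_iff]
    rw [hi] at h3 ⊢
    have h5 : (p ^ i).Coprime m := Nat.Coprime.pow_left i hKcard.symm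
    exact Nat.Coprime.eq_one_of_dvd h5 h3
  rw [h4, one_mul]
  exact hk

/-- If `X` has trivial `p'`-core and a normal Sylow `p`-subgroup `T`, then `C_X(T) ≤ T`. -/
theorem centralizer_normal_sylow_le [Finite G] {p : ℕ} [Fact p.Prime] (T : Sylow p G)
    [hTn : (T : Subgroup G).Normal] (hcore : pPrimeCore p G = ⊥) :
    Subgroup.centralizer ((T : Subgroup G) : Set G) ≤ T := by
  have hCn : (Subgroup.centralizer ((T : Subgroup G) : Set G)).Normal := inferInstance
  have hZc : ∀ z ∈ (T : Subgroup G).subgroupOf (Subgroup.centralizer ((T : Subgroup G) : Set G)),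
      ∀ c : Subgroup.centralizer ((T : Subgroup G) : Set G), c * z = z * c := by
    intro z hz c
    apply Subtype.ext
    have hc : (c : G) ∈ Subgroup.centralizer ((T : Subgroup G) : Set G) := c.2
    rw [Subgroup.mem_centralizer_iff] at hc
    have hzT : (z : G) ∈ (T : Subgroup G) := Subgroup.mem_subgroupOf.mp hz
    exact (hc z hzT).symm
  have hZp : IsPGroup p ((T : Subgroup G).subgroupOf (Subgroup.centralizer ((T : Subgroup G) : Set G))) :=
    T.isPGroup'.comap_subtype
  have hidx : ¬ p ∣ ((T : Subgroup G).subgroupOf (Subgroup.centralizer ((T : Subgroup G) : Set G))).index := by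
    have h := sylow_inf_normal_not_dvd T (Subgroup.centralizer ((T : Subgroup G) : Set G))
    rw [Subgroup.inf_relIndex_right] at h
    exact h
  obtain ⟨K', hK'card, hmemK, hdec⟩ := central_sylow_complement _ hZc hZp hidx
  -- K = image of K' is normal in G
  have hKn : (K'.map (Subgroup.centralizer ((T : Subgroup G) : Set G)).subtype).Normal := by
    constructor
    intro n hn g
    obtain ⟨k, hk, rfl⟩ := Subgroup.mem_map.mp hn
    have hmem : g * (k : G) * g⁻¹ ∈ Subgroup.centralizer ((T : Subgroup G) : Set G) :=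
      hCn.conj_mem k k.2 g
    have hord : (orderOf (⟨g * (k : G) * g⁻¹, hmem⟩ :
        Subgroup.centralizer ((T : Subgroup G) : Set G))).Coprime p := by
      rw [Subgroup.orderOf_mk]
      have h1 : orderOf (g * (k : G) * g⁻¹) = orderOf (k : G) := by
        have := orderOf_injective (MulAut.conj g).toMonoidHom (MulAut.conj g).injective (k : G)
        simpa using this
      rw [h1, Subgroup.orderOf_coe]
      have h2 : orderOf (⟨k, hk⟩ : K') ∣ Nat.card K' := orderOf_dvd_natCard _
      rw [Subgroup.orderOf_mk] at h2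
      exact Nat.Coprime.coprime_dvd_left h2 hK'card
    exact Subgroup.mem_map.mpr ⟨⟨g * (k : G) * g⁻¹, hmem⟩, hmemK _ hord, rfl⟩
  have hKc : (Nat.card (K'.map (Subgroup.centralizer ((T : Subgroup G) : Set G)).subtype)).Coprime p := by
    rw [Subgroup.card_map_of_injective (Subgroup.subtype_injective _)]
    exact hK'card
  have hKbot : K'.map (Subgroup.centralizer ((T : Subgroup G) : Set G)).subtype = ⊥ := by
    have := le_pPrimeCore _ hKc
    rw [hcore] at this
    exact le_bot_iff.mp this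
  have hK'bot : K' = ⊥ :=
    (Subgroup.map_eq_bot_iff_of_injective K' (Subgroup.subtype_injective _)).mp hKbot
  intro c hc
  obtain ⟨z, hz, k, hk, hzk⟩ := hdec ⟨c, hc⟩
  rw [hK'bot, Subgroup.mem_bot] at hk
  rw [hk, mul_one] at hzk
  rw [Subgroup.mem_subgroupOf, ← hzk] at hz
  exact hz

end Cfsg.Agent.Lib.Helper41
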