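import Mathlib
import Cfsg.Agent.Lib.Helper4.FCDefs

/-!
# Project FC (S4146), piece A2K3

In the context `A2Ctx`, the normal `q`-complement `K` is nilpotent: by A2K1 the class sizes of the
group `↥K` are `1` or `n`, by A2K2 the size `n` occurs, and ITONIL applies to `↥K`.
-/

namespace Cfsg.Agent.Lib.Helper4.FC

universe u

theorem a2k3_helper41_cen {G : Type u} [Group G] (K : Subgroup G) (x : ↥K) :
    (Cen (x : G)).subgroupOf K = Cen x := by
  ext y
  rw [Subgroup.mem_subgroupOf, Subgroup.mem_centralizer_iff, Subgroup.mem_centralizer_iff]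
  constructor
  · intro h z hz
    rw [Set.mem_singleton_iff] at hz
    rw [hz]
    apply Subtype.ext
    exact h (x : G) (Set.mem_singleton _)
  · intro h z hz
    rw [Set.mem_singleton_iff] at hz
    rw [hz]
    exact congrArg Subtype.val (h x (Set.mem_singleton _))

theorem a2k3_helper41_cs {G : Type u} [Group G] (K : Subgroup G) (x : ↥K) :
    cs x = (Cen (x : G)).relIndex K := by
  show (Cen x).index = ((Cen (x : G)).subgroupOf K).index
  rw [a2k3_helper41_cen]

theorem fc_a2k3 : A2K1Stmt.{u} → A2K2Stmt.{u} → ItoNilStmt.{u} → A2K3Stmt.{u} := by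
  intro h1 h2 hito G _ _ n m q K Q hctx
  have hn : 1 < n := hctx.1.1
  have hall : ∀ x : ↥K, cs x = 1 ∨ cs x = n := by
    intro x
    rw [a2k3_helper41_cs]
    exact h1 G n m q K Q (x : G) hctx x.2
  have hex : ∃ x : ↥K, cs x = n := by
    obtain ⟨u, hu, v, hv, huv⟩ := h2 G n m q K Q hctx
    refine ⟨⟨u, hu⟩, ?_⟩
    rcases hall ⟨u, hu⟩ with h | h
    · exfalso
      apply huv
      have htop : Cen (⟨u, hu⟩ : ↥K) = ⊤ := Subgroup.index_eq_one.mp h
      have hvmem : (⟨v, hv⟩ : ↥K) ∈ Cen (⟨u, hu⟩ : ↥K) := by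
        rw [htop]; exact Subgroup.mem_top _
      rw [Subgroup.mem_centralizer_iff] at hvmem
      have h3 := hvmem ⟨u, hu⟩ (Set.mem_singleton _)
      exact congrArg Subtype.val h3
    · exact h
  exact (hito ↥K n hn hall hex).1

end Cfsg.Agent.Lib.Helper4.FC
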