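import Cfsg.Agent.S1404
import Cfsg.Agent.S1410
import Cfsg.Agent.Lib.Helper32.BG10Basic
import Cfsg.Agent.Lib.Helper32.Trans2
import Cfsg.Agent.Lib.Helper34.CN
import Cfsg.Agent.Lib.Helper34.PLen
import Cfsg.Agent.Lib.Helper32.Uniq3
import Cfsg.Agent.Lib.Helper16.NFDEC
import Cfsg.Agent.Lib.Helper87.NFHALL
import Cfsg.Agent.Lib.Helper43.NFSUP
import Cfsg.Agent.Lib.Helper63.NFSYL
import Cfsg.Agent.Lib.Helper40.NFNIL

/-!
# S1384: fusion in nilpotent Hall subgroups of a minimal simple group of odd order (helper41)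

The five leaf pieces NF-SYL (helper63), NF-DEC (helper16), NF-NIL (helper40), NF-HALL (helper87),
NF-SUP (helper43) are imported.
-/

set_option autoImplicit false

open Cfsg Cfsg.Agent.Lib.Helper32 Cfsg.Agent.Lib.Helper32.BG10
open Cfsg.Agent.Lib.Helper16.NF Cfsg.Agent.Lib.Helper87.NF Cfsg.Agent.Lib.Helper43.NF
  Cfsg.Agent.Lib.Helper63.NF Cfsg.Agent.Lib.Helper40.NF

namespace Cfsg.Agent.Lib.Helper41.NF

universe u

variable {G : Type u} [Group G] [Finite G]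

/-- the step: make the conjugating element normalize one more Sylow subgroup of `H`. -/
theorem step (hG : IsMinSimpleOddOrder G) {H : Subgroup G} (hHn : Group.IsNilpotent H)
    (hHall : (Nat.card H).Coprime H.index) {q : ℕ} [Fact q.Prime] (hq : q ∣ Nat.card H)
    {P : Subgroup G} (hP : P ∈ sylSet q H) {N : Subgroup G} (hHN : H ≤ N)
    {x g : G} (hx : x ∈ H) (hg : g ∈ N) (hy : g * x * g⁻¹ ∈ H) :
    ∃ g' ∈ N, g' ∈ Subgroup.normalizer (P : Set G) ∧ g' * x * g'⁻¹ = g * x * g⁻¹ := by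
  obtain ⟨hPn, hPq, hPc⟩ := nil_syl hHn hP
  obtain ⟨u, v, huv, ⟨k, hk⟩, hv⟩ := qdecomp q x
  obtain ⟨a, ha⟩ : ∃ a : G, a = x ^ u := ⟨_, rfl⟩
  obtain ⟨b, hb⟩ : ∃ b : G, b = x ^ v := ⟨_, rfl⟩
  obtain ⟨y, hydef⟩ : ∃ y : G, y = g * x * g⁻¹ := ⟨_, rfl⟩
  obtain ⟨a', ha'⟩ : ∃ a' : G, a' = g * a * g⁻¹ := ⟨_, rfl⟩
  obtain ⟨b', hb'⟩ : ∃ b' : G, b' = g * b * g⁻¹ := ⟨_, rfl⟩
  rw [← ha] at huv hk
  rw [← hb] at huv hv
  rw [← hydef] at hy ⊢
  have hya : a' = y ^ u := by rw [ha', ha, hydef, conj_pow]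
  have hyb : b' = y ^ v := by rw [hb', hb, hydef, conj_pow]
  have hyab : a' * b' = y := by
    rw [ha', hb', hydef, ← huv]; group
  have haH : a ∈ H := ha ▸ H.pow_mem hx u
  have hbH : b ∈ H := hb ▸ H.pow_mem hx v
  have ha'H : a' ∈ H := hya ▸ H.pow_mem hy u
  have hb'H : b' ∈ H := hyb ▸ H.pow_mem hy v
  have haP : a ∈ P := hPq a haH ⟨k, hk⟩
  have ha'P : a' ∈ P := by
    refine hPq a' ha'H ⟨k, ?_⟩
    rw [ha', conj_pow, hk]; group
  have hb'o : (orderOf b').Coprime q := by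
    rw [hb']
    have h1 : orderOf (g * b * g⁻¹) = orderOf b := (MulAut.conj g).orderOf_eq b
    rw [h1]; exact hv
  have hbc : ∀ z ∈ P, b * z = z * b := hPc b hbH hv
  have hb'c : ∀ z ∈ P, b' * z = z * b' := hPc b' hb'H hb'o
  obtain ⟨W, hWdef⟩ : ∃ W : Subgroup G, W = N ⊓ Subgroup.centralizer ({b'} : Set G) := ⟨_, rfl⟩
  have hmemW : ∀ z : G, z ∈ W ↔ z ∈ N ∧ b' * z = z * b' := by
    intro z
    rw [hWdef, Subgroup.mem_inf, Subgroup.mem_centralizer_iff]
    constructor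
    · rintro ⟨h1, h2⟩; exact ⟨h1, h2 b' rfl⟩
    · rintro ⟨h1, h2⟩
      refine ⟨h1, fun t ht => ?_⟩
      rw [Set.mem_singleton_iff] at ht; subst ht; exact h2
  have hPW : P ≤ W := fun z hz => (hmemW z).mpr ⟨hHN (hP.1 hz), hb'c z hz⟩
  have hgPW : cj g P ≤ W := by
    intro z hz
    rw [mem_cj] at hz
    refine (hmemW z).mpr ⟨?_, ?_⟩
    · have h1 : z = g * (g⁻¹ * z * g) * g⁻¹ := by group
      rw [h1]; exact N.mul_mem (N.mul_mem hg (hHN (hP.1 hz))) (N.inv_mem hg)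
    · have h1 := hbc _ hz
      calc b' * z = g * (b * (g⁻¹ * z * g)) * g⁻¹ := by rw [hb']; group
        _ = g * ((g⁻¹ * z * g) * b) * g⁻¹ := by rw [h1]
        _ = z * b' := by rw [hb']; group
  by_cases hWtop : W = ⊤
  · -- `x` is a `q`-element
    have hb'1 : b' = 1 := by
      by_contra hne
      refine minSimple_centralizer_singleton_ne_top hG hne (top_le_iff.mp ?_)
      rw [← hWtop, hWdef]; exact inf_le_right
    have hb1 : b = 1 := by
      have h1 : b = g⁻¹ * b' * g := by rw [hb']; group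
      rw [h1, hb'1]; group
    have hxa : x = a := by rw [← huv, hb1, mul_one]
    have hya' : y = a' := by rw [← hyab, hb'1, mul_one]
    have hNtop : ∀ z : G, z ∈ N := fun z => ((hmemW z).mp (hWtop ▸ Subgroup.mem_top z)).1
    by_cases hx1 : x = 1
    · refine ⟨1, N.one_mem, Subgroup.one_mem _, ?_⟩
      rw [hydef, hx1]; group
    · have hxP : x ∈ P := hxa ▸ haP
      have hyP : y ∈ P := hya' ▸ ha'P
      have hP1 : P ≠ ⊥ := by
        intro h
        rw [h, Subgroup.mem_bot] at hxP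
        exact hx1 hxP
      have hPtop : P ≠ ⊤ := minSimple_pgroup_ne_top hG (isPGroup_of_mem_sylSet hP)
      obtain ⟨M, hM, hNM⟩ := exists_coatom_ge (minSimple_normalizer_ne_top hG hP1 hPtop)
      have hPM : P ≤ M := Subgroup.le_normalizer.trans hNM
      have hPsM : P ∈ sylSet q M := syl_of_hall hHall hq hP hPM
      have hqσ : q ∈ sigma M := mem_sigma_of_normalizer_le hPsM hP1 hNM
      have hXP : Subgroup.zpowers x ≤ P := (Subgroup.zpowers_le).mpr hxP
      have hXq : IsPGroup q (Subgroup.zpowers x) := (isPGroup_of_mem_sylSet hP).to_le hXP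
      have hX1 : Subgroup.zpowers x ≠ ⊥ := by
        rw [Ne, Subgroup.zpowers_eq_bot]; exact hx1
      have hXM : Subgroup.zpowers x ≤ M := hXP.trans hPM
      have hgX : (Subgroup.zpowers x).map (MulAut.conj g).toMonoidHom ≤ M := by
        rw [MonoidHom.map_zpowers]
        apply (Subgroup.zpowers_le).mpr
        have h1 : (MulAut.conj g).toMonoidHom x = y := by rw [hydef]; rfl
        rw [h1]; exact hPM hyP
      obtain ⟨m, hm, c, hc, hgmc⟩ :=
        (Cfsg.Agent.S1404.result hG M hM q hqσ (Subgroup.zpowers x) hXq hX1 hXM).1 g hgX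
      have hcx : x * c = c * x :=
        (Subgroup.mem_centralizer_iff.mp hc) x (Subgroup.mem_zpowers x)
      have hymx : m * x * m⁻¹ = y := by
        rw [hydef, hgmc]
        have h1 : m * c * x * (m * c)⁻¹ = m * (c * x * c⁻¹) * m⁻¹ := by group
        rw [h1, ← hcx]; group
      obtain ⟨n, -, hnP, hn⟩ := fus_syl hG hM.1 hPsM hxP hm (hymx ▸ hyP)
      exact ⟨n, hNtop n, hnP, by rw [hn, hymx]⟩
  · -- generic case
    have hPsW : P ∈ sylSet q W := syl_of_hall hHall hq hP hPW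
    have hgPsW : cj g P ∈ sylSet q W := ⟨hgPW, by rw [card_cj]; exact hPsW.2⟩
    obtain ⟨c, hcW, hc⟩ := sylSet_conj hgPsW hPsW
    have hg1 : cj (c * g) P = P := by rw [cj_mul]; exact hc
    have hg1n : c * g ∈ Subgroup.normalizer (P : Set G) := cj_eq_self_iff.mp hg1
    have hca' : c * a' * c⁻¹ ∈ P := by
      have h1 : c * a' * c⁻¹ = (c * g) * a * (c * g)⁻¹ := by rw [ha']; group
      rw [h1]; exact (Subgroup.mem_normalizer_iff.mp hg1n a).mp haP
    obtain ⟨n, hnW, hnP, hn⟩ := fus_syl hG hWtop hPsW ha'P hcW hca'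
    obtain ⟨hcN, hcb⟩ := (hmemW c).mp hcW
    obtain ⟨hnN, hnb⟩ := (hmemW n).mp hnW
    refine ⟨n⁻¹ * (c * g), N.mul_mem (N.inv_mem hnN) (N.mul_mem hcN hg),
      Subgroup.mul_mem _ (Subgroup.inv_mem _ hnP) hg1n, ?_⟩
    have e1 : c * b' * c⁻¹ = b' := by rw [← hcb]; group
    have e2 : n⁻¹ * b' * n = b' := by rw [mul_assoc, hnb]; group
    calc n⁻¹ * (c * g) * x * (n⁻¹ * (c * g))⁻¹
        = n⁻¹ * (c * (g * x * g⁻¹) * c⁻¹) * n := by group
      _ = n⁻¹ * (c * (a' * b') * c⁻¹) * n := by rw [← hydef, hyab]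
      _ = n⁻¹ * ((c * a' * c⁻¹) * (c * b' * c⁻¹)) * n := by group
      _ = n⁻¹ * ((n * a' * n⁻¹) * b') * n := by rw [← hn, e1]
      _ = a' * (n⁻¹ * b' * n) := by group
      _ = y := by rw [e2, hyab]

/-- fusion in nilpotent Hall subgroups (= S1384) -/
theorem main (hG : IsMinSimpleOddOrder G) (H : Subgroup G) (hHn : Group.IsNilpotent H)
    (hHall : (Nat.card H).Coprime H.index) :
    ∀ x ∈ H, ∀ g : G, g * x * g⁻¹ ∈ H →
      ∃ n ∈ Subgroup.normalizer (H : Set G), n * x * n⁻¹ = g * x * g⁻¹ := by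
  intro x hx g hy
  classical
  have hex : ∀ q : ℕ, ∃ P : Subgroup G, q.Prime → P ∈ sylSet q H := by
    intro q
    by_cases hq : q.Prime
    · have := Fact.mk hq
      obtain ⟨P, hP⟩ := sylSet_nonempty q H
      exact ⟨P, fun _ => hP⟩
    · exact ⟨⊥, fun h => absurd h hq⟩
  choose P hP using hex
  have key : ∀ T : Finset ℕ, (∀ q ∈ T, q.Prime ∧ q ∣ Nat.card H) →
      ∃ g' : G, g' * x * g'⁻¹ = g * x * g⁻¹ ∧
        ∀ q ∈ T, g' ∈ Subgroup.normalizer (P q : Set G) := by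
    intro T
    induction T using Finset.induction_on with
    | empty => intro _; exact ⟨g, rfl, by simp⟩
    | insert q T hqT ih =>
      intro hT
      obtain ⟨g₁, hg₁, hg₁n⟩ := ih (fun t ht => hT t (Finset.mem_insert_of_mem ht))
      obtain ⟨hqp, hqd⟩ := hT q (Finset.mem_insert_self q T)
      have := Fact.mk hqp
      obtain ⟨N, hN⟩ : ∃ N : Subgroup G, N = ⨅ t ∈ T, Subgroup.normalizer (P t : Set G) :=
        ⟨_, rfl⟩
      have hmemN : ∀ z : G, z ∈ N ↔ ∀ t ∈ T, z ∈ Subgroup.normalizer (P t : Set G) := by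
        intro z; rw [hN]; simp only [Subgroup.mem_iInf]
      have hHN : H ≤ N := by
        intro z hz
        refine (hmemN z).mpr (fun t ht => ?_)
        obtain ⟨htp, htd⟩ := hT t (Finset.mem_insert_of_mem ht)
        have := Fact.mk htp
        exact (nil_syl hHn (hP t htp)).1 hz
      have hg₁N : g₁ ∈ N := (hmemN g₁).mpr hg₁n
      have hy₁ : g₁ * x * g₁⁻¹ ∈ H := by rw [hg₁]; exact hy
      obtain ⟨g₂, hg₂N, hg₂P, hg₂⟩ := step hG hHn hHall hqd (hP q hqp) hHN hx hg₁N hy₁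
      refine ⟨g₂, by rw [hg₂, hg₁], ?_⟩
      intro t ht
      rcases Finset.mem_insert.mp ht with rfl | ht'
      · exact hg₂P
      · exact (hmemN g₂).mp hg₂N t ht'
  obtain ⟨n, hn, hnP⟩ := key (Nat.card H).primeFactors
    (fun q hq => ⟨Nat.prime_of_mem_primeFactors hq, Nat.dvd_of_mem_primeFactors hq⟩)
  refine ⟨n, mem_normalizer_of_sylows P (fun q hq _ => hP q hq) (fun q hq hqd => hnP q ?_), hn⟩
  exact Nat.mem_primeFactors.mpr ⟨hq, hqd, Nat.card_pos.ne'⟩

end Cfsg.Agent.Lib.Helper41.NF
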