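import Mathlib
import Cfsg.Agent.Lib.Helper48.QADefs

/-!
# Project QA (S2787), piece BTRP

In `SL₂(F)`, `char F = p`: an element of `p`-power order has trace `2`.
-/

set_option autoImplicit false

universe u

namespace Cfsg.Agent.Lib.Helper48.QA

open Matrix Polynomial

local notation "SL2" F => Matrix.SpecialLinearGroup (Fin 2) F
local notation "PSL2" F => Matrix.ProjectiveSpecialLinearGroup (Fin 2) F
local notation "M2" F => Matrix (Fin 2) (Fin 2) F

/-- QA-BTRP -/
theorem trace_of_ppow {F : Type*} [Field F] {p : ℕ} [Fact p.Prime] [CharP F p]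
    (g : SL2 F) (k : ℕ) (hg : g ^ (p ^ k) = 1) : Matrix.trace (g : M2 F) = 2 := by
  have h1 : (g : M2 F) ^ (p ^ k) = 1 := by
    rw [← Matrix.SpecialLinearGroup.coe_pow, hg, Matrix.SpecialLinearGroup.coe_one]
  have h2 : ((g : M2 F) - 1) ^ (p ^ k) = 0 := by
    rw [sub_pow_char_pow_of_commute p k (Commute.one_right _), h1, one_pow, sub_self]
  have h3 : IsNilpotent ((g : M2 F) - 1) := ⟨p ^ k, h2⟩
  have h4 : IsNilpotent (Matrix.trace ((g : M2 F) - 1)) :=
    Matrix.isNilpotent_trace_of_isNilpotent h3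
  have h5 : Matrix.trace ((g : M2 F) - 1) = 0 := h4.eq_zero
  rw [Matrix.trace_sub, Matrix.trace_one, sub_eq_zero] at h5
  rw [h5]
  simp

end Cfsg.Agent.Lib.Helper48.QA
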