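import Cfsg.Agent.Lib.Helper41.TW5
import Cfsg.Agent.Lib.Helper41.TW6
import Cfsg.Agent.Lib.Helper41.PSub
import Cfsg.Agent.Lib.Helper30.WBIDX1
import Cfsg.Agent.Lib.Helper30.WBIDX2
import Cfsg.Agent.Lib.Helper30.WBIDX3N
import Cfsg.Agent.Lib.Helper30.WBIDX3I
import Cfsg.Agent.Lib.Helper97.WBF1
import Cfsg.Agent.Lib.Helper55.WBF2
import Cfsg.Agent.Lib.Helper55.WBF3
import Cfsg.Agent.Lib.Helper55.WBP1
import Cfsg.Agent.Lib.Helper55.WBP3
import Cfsg.Agent.Lib.Helper86.WBP4

/-!
# Wielandt's index bounds in the Thompson–Wielandt setting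

Assembly of the pieces proved by helper30 (IDX1, IDX2, IDX3N, IDX3I), helper97 (F1),
helper55 (F2, F3, P1, P3) and helper86 (P4).

* `idxC`: in a `Setting` with `|X : X ∩ Y| = |Y : X ∩ Y| = d`, the index of `A2` in `X` divides
  `d! ((d-1)!)^d`.
* `perm_setting`: a primitive faithful action with a suborbit of length `d ≥ 2` gives a `Setting`
  for the two point stabilizers.
-/

set_option autoImplicit false

namespace Cfsg.Agent.Lib.Helper41.TW

open Cfsg Cfsg.Agent.Lib.Helper66

section idx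
variable {G : Type*} [Group G] [Finite G] {X Y A1 B1 A2 B2 : Subgroup G}

theorem idx3 (S : Setting X Y A1 B1 A2 B2) (m : ℕ) (h : B1.relIndex A1 ∣ m) :
    A2.relIndex A1 ∣ m ^ (Y.relIndex X) := by
  classical
  have := Fintype.ofFinite (↥X ⧸ Y.subgroupOf X)
  have key := index_iInf_dvd_pow
    (fun q : ↥X ⧸ Y.subgroupOf X =>
      (B1.map (MulAut.conj ((Quotient.out q : ↥X) : G)).toMonoidHom).subgroupOf A1)
    (fun q => (Cfsg.Agent.Lib.Helper30.WBP.idx3N S (Quotient.out q).2).1) m
    (fun q => by rw [(Cfsg.Agent.Lib.Helper30.WBP.idx3N S (Quotient.out q).2).2]; exact h)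
  rw [← Cfsg.Agent.Lib.Helper30.WBP.idx3I S] at key
  have hc : Fintype.card (↥X ⧸ Y.subgroupOf X) = Y.relIndex X := by
    rw [← Nat.card_eq_fintype_card]
    rfl
  rw [hc] at key
  exact key

/-- Wielandt's index bound in the abstract setting. -/
theorem idxC (S : Setting X Y A1 B1 A2 B2) {d : ℕ} (h1 : Y.relIndex X = d)
    (h2 : X.relIndex Y = d) :
    A2.relIndex X ∣ d.factorial * ((d - 1).factorial) ^ d := by
  have e := Subgroup.relIndex_mul_relIndex A2 A1 X S.A2_le_A1 S.A1_le_X
  rw [← e, mul_comm]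
  have a1 := Cfsg.Agent.Lib.Helper30.WBP.idx1 S
  rw [h1] at a1
  have a2 := Cfsg.Agent.Lib.Helper30.WBP.idx2 S
  rw [h2] at a2
  have a3 := idx3 S _ a2
  rw [h1] at a3
  exact mul_dvd_mul a1 a3

theorem card_dvd_of_bot (S : Setting X Y A1 B1 A2 B2) {d : ℕ} (h1 : Y.relIndex X = d)
    (h2 : X.relIndex Y = d) (hc : Nat.card X = Nat.card Y) (h : A2 = ⊥ ∨ B2 = ⊥) :
    Nat.card X ∣ d.factorial * ((d - 1).factorial) ^ d := by
  rcases h with h | h
  · have := idxC S h1 h2
    rwa [h, Subgroup.relIndex_bot_left] at this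
  · have := idxC S.symm h2 h1
    rwa [h, Subgroup.relIndex_bot_left, ← hc] at this

theorem fitting_eq_bot_of_rp {Z : Subgroup G} (h : ∀ p : ℕ, p.Prime → rp p Z = ⊥) :
    fittingSubgroup ↥Z = ⊥ := by
  rw [fitting_eq_iSup_pCore, eq_bot_iff]
  apply iSup₂_le
  intro p hp
  rw [(rp_eq_bot_iff p Z).mp (h p hp)]

end idx

section perm
variable {G Ω : Type*} [Group G] [MulAction G Ω]

/-- A primitive faithful action with a suborbit of length `d ≥ 2` gives a Thompson–Wielandt
setting for the stabilizers of the two points. -/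
theorem perm_setting [Finite G] [FaithfulSMul G Ω] [Finite Ω]
    (hprim : MulAction.IsPreprimitive G Ω) (a b : Ω) (d : ℕ)
    (hd : Nat.card (MulAction.orbit (MulAction.stabilizer G a) b) = d) (h2 : 2 ≤ d) :
    ∃ A1 B1 A2 B2 : Subgroup G,
      Setting (MulAction.stabilizer G a) (MulAction.stabilizer G b) A1 B1 A2 B2 ∧
      (MulAction.stabilizer G b).relIndex (MulAction.stabilizer G a) = d ∧
      (MulAction.stabilizer G a).relIndex (MulAction.stabilizer G b) = d ∧
      Nat.card (MulAction.stabilizer G a) = Nat.card (MulAction.stabilizer G b) := by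
  classical
  have hrel : (MulAction.stabilizer G b).relIndex (MulAction.stabilizer G a) = d := by
    rw [Cfsg.Agent.Lib.Helper55.WBP.perm_relIndex, hd]
  have hnt : Nontrivial Ω := by
    by_contra hcon
    rw [not_nontrivial_iff_subsingleton] at hcon
    have : Nat.card (MulAction.orbit (MulAction.stabilizer G a) b) ≤ 1 :=
      Finite.card_le_one_iff_subsingleton.mpr inferInstance
    omega
  obtain ⟨hco, hcore⟩ := Cfsg.Agent.Lib.Helper55.WBP.perm_coatom hprim a
  have hpt : MulAction.IsPretransitive G Ω := hprim.toIsPretransitive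
  obtain ⟨g, hg⟩ := MulAction.exists_smul_eq G a b
  have hconj : MulAction.stabilizer G b =
      (MulAction.stabilizer G a).map (MulAut.conj g).toMonoidHom := by
    rw [← hg, MulAction.stabilizer_smul_eq_stabilizer_map_conj]
  have hne : MulAction.stabilizer G a ≠ MulAction.stabilizer G b := by
    intro h
    rw [← h, Subgroup.relIndex_self] at hrel
    omega
  have hc : Nat.card (MulAction.stabilizer G a) = Nat.card (MulAction.stabilizer G b) := by
    rw [hconj]
    exact (Subgroup.card_map_of_injective (MulAut.conj g).injective).symm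
  let AB : ℕ → Subgroup G × Subgroup G := fun n => Nat.rec
    (MulAction.stabilizer G a, MulAction.stabilizer G b)
    (fun _ r => (((r.1 ⊓ r.2).subgroupOf (MulAction.stabilizer G a)).normalCore.map
        (MulAction.stabilizer G a).subtype,
      ((r.1 ⊓ r.2).subgroupOf (MulAction.stabilizer G b)).normalCore.map
        (MulAction.stabilizer G b).subtype)) n
  have S := setting_of_hyps (MulAction.stabilizer G a) (MulAction.stabilizer G b) hco g hconj hne
    hcore (fun n => (AB n).1) (fun n => (AB n).2) rfl rfl (fun _ => rfl) (fun _ => rfl)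
  exact ⟨_, _, _, _, S, hrel,
    by rw [Cfsg.Agent.Lib.Helper86.WBP.relIndex_symm_of_card _ _ hc, hrel], hc⟩

/-- If the two-point stabilizer induces a group with trivial Fitting subgroup on the suborbit,
then `O_p` of the two-point stabilizer acts trivially on the suborbit. -/
theorem rp_inf_le_A1 [Finite G] (a b : Ω) {A1 B1 A2 B2 : Subgroup G}
    (S : Setting (MulAction.stabilizer G a) (MulAction.stabilizer G b) A1 B1 A2 B2)
    (hF : Cfsg.fittingSubgroup ↥(((MulAction.stabilizer G b).subgroupOf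
      (MulAction.stabilizer G a)).map (MulAction.toPermHom (MulAction.stabilizer G a)
        (MulAction.orbit (MulAction.stabilizer G a) b))) = ⊥) {p : ℕ} (hp : p.Prime) :
    rp p (MulAction.stabilizer G a ⊓ MulAction.stabilizer G b) ≤ A1 := by
  have : Fact p.Prime := ⟨hp⟩
  set X := MulAction.stabilizer G a with hX
  set Y := MulAction.stabilizer G b with hY
  have hRX : rp p (X ⊓ Y) ≤ X := (rp_le p _).trans inf_le_left
  have hRY : rp p (X ⊓ Y) ≤ Y := (rp_le p _).trans inf_le_right
  have hnil : Group.IsNilpotent ↥((rp p (X ⊓ Y)).subgroupOf X) :=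
    ((rp_isPGroup p (X ⊓ Y)).comap_subtype (K := X)).isNilpotent
  have hNH : (rp p (X ⊓ Y)).subgroupOf X ≤ Y.subgroupOf X := by
    intro n hn
    exact Subgroup.mem_subgroupOf.mpr (hRY (Subgroup.mem_subgroupOf.mp hn))
  have hn : Y.subgroupOf X ≤
      Subgroup.normalizer (((rp p (X ⊓ Y)).subgroupOf X : Subgroup ↥X) : Set ↥X) := by
    intro h hh
    have hh' : (h : G) ∈ Subgroup.normalizer ((rp p (X ⊓ Y) : Subgroup G) : Set G) :=
      le_normalizer_rp p (X ⊓ Y) ⟨h.2, Subgroup.mem_subgroupOf.mp hh⟩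
    rw [Subgroup.mem_normalizer_iff]
    intro n
    rw [Subgroup.mem_subgroupOf, Subgroup.mem_subgroupOf]
    exact Subgroup.mem_normalizer_iff.mp hh' (n : G)
  have hker := Cfsg.Agent.Lib.Helper55.WBP.le_ker_of_fitting_bot _ _ _ hF hNH hn hnil
  intro n hnR
  rw [S.mA1]
  refine ⟨hRX hnR, fun x hx => ?_⟩
  have h1 : (⟨n, hRX hnR⟩ : ↥X) ∈ (rp p (X ⊓ Y)).subgroupOf X :=
    Subgroup.mem_subgroupOf.mpr hnR
  exact Cfsg.Agent.Lib.Helper55.WBP.ker_toPermHom_orbit a b ⟨n, hRX hnR⟩ (hker h1) x hx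

end perm

end Cfsg.Agent.Lib.Helper41.TW
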